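import Cfsg.Agent.H314.Co3.RowLin

/-!
# S1920, case A: `L₅(2)` and `U₅(2)` (helper314)

`lin2` : in characteristic `2` and dimension `5` an involution does not commute with a Frobenius group of order `20`.
-/

set_option autoImplicit false

open Subgroup Cfsg Module

namespace Cfsg.Agent.H314.Co3

theorem sum_finrank_le {k V : Type*} [Field k] [AddCommGroup V] [Module k V] [FiniteDimensional k V] {ι : Type*}
    [Fintype ι] {p : ι → Submodule k V} (hp : iSupIndep p) : ∑ i, finrank k (p i) ≤ finrank k V := by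
  classical
  have h1 := hp.dfinsupp_lsum_injective
  have h2 := LinearMap.finrank_le_finrank_of_injective h1
  have h3 : finrank k (Π₀ i, p i) = ∑ i, finrank k (p i) := Module.finrank_directSum k (fun i => ↥(p i))
  rw [← h3]
  exact h2

theorem lin2 {K V : Type*} [Field K] [IsAlgClosed K] [CharP K 2] [AddCommGroup V] [Module K V] [FiniteDimensional K V]
    (hV : finrank K V ≤ 5) (X h h' Z : End K V) (hX5 : X ^ 5 = 1) (hX1 : X ≠ 1) (hh' : h' * h = 1)
    (hc : h * X = X ^ 2 * h) (hZ : Z * X = X * Z) (hZ2 : Z * Z = 1) : Z = 1 := by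
  classical
  have hf5 : Fact (Nat.Prime 5) := ⟨by norm_num⟩
  have h5 : ((5 : ℕ) : K) ≠ 0 := by
    intro h0
    rw [CharP.cast_eq_zero_iff K 2] at h0
    omega
  have hss : X.IsSemisimple := by
    refine End.isSemisimple_of_squarefree_aeval_eq_zero
      (Polynomial.separable_X_pow_sub_C (n := 5) (1 : K) h5 one_ne_zero).squarefree ?_
    simp [hX5]
  have htop := hss.iSup_eigenspace_eq_top
  have ind := End.eigenspaces_iSupIndep X
  have hmu : ∀ (μ : K) (v : V), X v = μ • v → v ≠ 0 → μ ^ 5 = 1 := by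
    intro μ v hv hv0
    have h1 : ∀ n : ℕ, (X ^ n) v = μ ^ n • v := by
      intro n
      induction n with
      | zero => simp
      | succ n ih => rw [pow_succ', Module.End.mul_apply, ih, map_smul, hv, smul_smul, pow_succ]
    have h2 := h1 5
    rw [hX5, Module.End.one_apply] at h2
    by_contra hne
    have h3 : (μ ^ 5 - 1) • v = 0 := by rw [sub_smul, one_smul, ← h2, sub_self]
    rcases smul_eq_zero.1 h3 with h4 | h4
    · exact hne (sub_eq_zero.1 h4)
    · exact hv0 h4
  have hinj : Function.Injective h := fun v w hvw => by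
    have h1 : h' (h v) = h' (h w) := by rw [hvw]
    rw [← Module.End.mul_apply, ← Module.End.mul_apply, hh'] at h1
    exact h1
  have hstep : ∀ μ : K, finrank K (X.eigenspace μ) ≤ finrank K (X.eigenspace (μ ^ 3)) := by
    intro μ
    have hm : ∀ v : X.eigenspace μ, h v ∈ X.eigenspace (μ ^ 3) := by
      rintro ⟨v, hv⟩
      rw [End.mem_eigenspace_iff] at hv ⊢
      have h1 : (X ^ 2) (h v) = μ • h v := by
        rw [← Module.End.mul_apply, ← hc, Module.End.mul_apply, hv, map_smul]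
      have h3 : X ^ 2 * (X ^ 2 * X ^ 2) = X := by
        rw [← pow_add, ← pow_add, show 2 + (2 + 2) = 5 + 1 by norm_num, pow_add, hX5, one_mul, pow_one]
      have h2 : X (h v) = (X ^ 2) ((X ^ 2) ((X ^ 2) (h v))) := by
        conv_lhs => rw [← h3]
        rfl
      rw [h2, h1, map_smul, h1, map_smul, map_smul, h1, smul_smul, smul_smul]
      congr 1
      ring
    refine LinearMap.finrank_le_finrank_of_injective (f := LinearMap.codRestrict (X.eigenspace (μ ^ 3))
      (h.comp (X.eigenspace μ).subtype) hm) ?_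
    intro v w hvw
    exact Subtype.ext (hinj (congrArg Subtype.val hvw))
  have hsum : ∀ μ : K, μ ^ 5 = 1 → μ ≠ 1 → finrank K (X.eigenspace 1) + 4 * finrank K (X.eigenspace μ) ≤ 5 := by
    intro μ h1 h2
    have ord : orderOf μ = 5 := orderOf_eq_prime h1 h2
    have hinj : Function.Injective (fun i : Fin 5 => μ ^ (i : ℕ)) := by
      intro i j hij
      have h3 : (i : ℕ) = j := pow_injOn_Iio_orderOf (by rw [ord]; exact Set.mem_Iio.2 i.2) (by rw [ord]; exact Set.mem_Iio.2 j.2) hij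
      exact Fin.ext h3
    have h3 : ∑ i : Fin 5, finrank K (X.eigenspace (μ ^ (i : ℕ))) ≤ finrank K V := sum_finrank_le (ind.comp hinj)
    have h4 := hstep μ
    have h5 := hstep (μ ^ 3)
    have h6 := hstep (μ ^ 4)
    rw [← pow_mul] at h5 h6
    rw [show 3 * 3 = 5 + 4 by norm_num, pow_add, h1, one_mul] at h5
    rw [show 4 * 3 = 5 + (5 + 2) by norm_num, pow_add, pow_add, h1, one_mul, one_mul] at h6
    rw [Fin.sum_univ_five] at h3
    change finrank K (X.eigenspace (μ ^ 0)) + finrank K (X.eigenspace (μ ^ 1)) + finrank K (X.eigenspace (μ ^ 2)) +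
      finrank K (X.eigenspace (μ ^ 3)) + finrank K (X.eigenspace (μ ^ 4)) ≤ finrank K V at h3
    have e0 : finrank K (X.eigenspace (μ ^ 0)) = finrank K (X.eigenspace (1 : K)) := by rw [pow_zero]
    have e1 : finrank K (X.eigenspace (μ ^ 1)) = finrank K (X.eigenspace μ) := by rw [pow_one]
    omega
  -- `Z ≠ 1` on some eigenspace
  by_contra hZ1
  let N : End K V := Z - 1
  have hN0 : N ≠ 0 := fun h => hZ1 (sub_eq_zero.1 h)
  have h2K : (2 : K) = 0 := CharTwo.two_eq_zero
  have hNN : N * N = 0 := by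
    have h1 : N * N = Z * Z - 1 - (Z - 1) - (Z - 1) := by
      change (Z - 1) * (Z - 1) = _
      noncomm_ring
    rw [h1, hZ2, sub_self, zero_sub, ← neg_add', ← two_smul K, h2K, zero_smul, neg_zero]
  have hNX : N * X = X * N := by
    change (Z - 1) * X = X * (Z - 1)
    rw [sub_mul, mul_sub, hZ, one_mul, mul_one]
  obtain ⟨μ, v, hv, hv1⟩ : ∃ (μ : K) (v : V), v ∈ X.eigenspace μ ∧ N v ≠ 0 := by
    by_contra hcon
    push Not at hcon
    apply hN0
    have h1 : (⨆ μ : K, X.eigenspace μ) ≤ LinearMap.ker N := iSup_le fun μ v hv => hcon μ v hv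
    rw [htop, top_le_iff, LinearMap.ker_eq_top] at h1
    exact h1
  have hv0 : v ≠ 0 := fun h => hv1 (by rw [h, map_zero])
  have hNv : N v ∈ X.eigenspace μ := by
    rw [End.mem_eigenspace_iff] at hv ⊢
    rw [← Module.End.mul_apply, ← hNX, Module.End.mul_apply, hv, map_smul]
  have h2 : 2 ≤ finrank K (X.eigenspace μ) := by
    have hli : LinearIndependent K ![(⟨v, hv⟩ : X.eigenspace μ), ⟨N v, hNv⟩] := by
      rw [LinearIndependent.pair_iff]
      intro a b hab
      have h3 : a • v + b • N v = 0 := congrArg Subtype.val hab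
      have h4 : a • N v = 0 := by
        have h5 := congrArg N h3
        rw [map_add, map_smul, map_smul, map_zero, ← Module.End.mul_apply, hNN, LinearMap.zero_apply, smul_zero,
          add_zero] at h5
        exact h5
      have ha : a = 0 := (smul_eq_zero.1 h4).resolve_right hv1
      rw [ha, zero_smul, zero_add] at h3
      exact ⟨ha, (smul_eq_zero.1 h3).resolve_right hv1⟩
    have := hli.fintype_card_le_finrank
    simpa using this
  by_cases hμ : μ = 1
  · obtain ⟨l, hl1, hl⟩ : ∃ l : K, l ≠ 1 ∧ X.eigenspace l ≠ ⊥ := by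
      by_contra hcon
      push Not at hcon
      apply hX1
      have h1 : (⨆ μ : K, X.eigenspace μ) ≤ X.eigenspace 1 := by
        refine iSup_le fun l => ?_
        by_cases hl : l = 1
        · rw [hl]
        · rw [hcon l hl]; exact bot_le
      rw [htop, top_le_iff] at h1
      ext v
      have h2 : v ∈ X.eigenspace 1 := by rw [h1]; trivial
      rw [End.mem_eigenspace_iff, one_smul] at h2
      exact h2
    obtain ⟨w, hw, hw0⟩ := (Submodule.ne_bot_iff _).1 hl
    have h3 := hsum l (hmu l w (End.mem_eigenspace_iff.1 hw) hw0) hl1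
    have h4 : finrank K (X.eigenspace l) ≠ 0 := by
      intro h0
      exact hl (Submodule.finrank_eq_zero.1 h0)
    rw [hμ] at h2
    omega
  · have h3 := hsum μ (hmu μ v (End.mem_eigenspace_iff.1 hv) hv0) hμ
    omega

variable {G : Type*} [Group G] {H N0 : Subgroup G} {z s : G} {ψ : ↥H →* Equiv.Perm (Fin 6)}

namespace CA

/-- a Frobenius group of order 20 in `H` -/
theorem exists_frob [Finite G] (C : CA H N0 z s ψ) (h25 : ¬ 25 ∣ Nat.card G) :
    ∃ x u : G, x ^ 5 = 1 ∧ x ≠ 1 ∧ u * x = x ^ 2 * u ∧ x * z = z * x := by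
  classical
  have hf5 : Fact (Nat.Prime 5) := ⟨by norm_num⟩
  let c : Equiv.Perm (Fin 6) := c[0, 1, 2, 3, 4]
  obtain ⟨d, hd⟩ : ∃ d : Equiv.Perm (Fin 6), d⁻¹ * c * d = c ^ 2 := ⟨c[1, 3, 4, 2], by decide⟩
  have hc5 : c ^ 5 = 1 := by decide
  have hc1 : c ≠ 1 := by decide
  let M : Subgroup ↥H := (zpowers c).comap ψ
  have hco : orderOf c = 5 := orderOf_eq_prime hc5 hc1
  obtain ⟨m, hm, hk⟩ := C.ker_card
  -- `|H| = 46080 m`
  have hHc : Nat.card ↥H = 64 * m * 720 := by
    have h1 := Subgroup.card_mul_index ψ.ker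
    rw [Subgroup.index_ker, MonoidHom.range_eq_top.2 C.surj, Subgroup.card_top, card_perm_six, hk] at h1
    exact h1.symm
  have hHG : Nat.card ↥H ∣ Nat.card G := Subgroup.card_subgroup_dvd_card H
  have hm5 : ¬ 5 ∣ m := by
    rintro ⟨r, hr⟩
    apply h25
    refine dvd_trans ⟨64 * r * 144, ?_⟩ hHG
    rw [hHc, hr]; ring
  obtain ⟨y, hy⟩ := C.surj c
  have hyM : y ∈ M := by
    change ψ y ∈ zpowers c
    rw [hy]; exact mem_zpowers c
  have h5M : 5 ∣ Nat.card M := by
    have h1 : orderOf (ψ y) ∣ orderOf (⟨y, hyM⟩ : M) := by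
      apply orderOf_dvd_of_pow_eq_one
      have h2 : y ^ orderOf (⟨y, hyM⟩ : M) = 1 := by
        have := pow_orderOf_eq_one (⟨y, hyM⟩ : M)
        exact congrArg Subtype.val this
      rw [← map_pow, h2, map_one]
    rw [hy, hco] at h1
    exact h1.trans (orderOf_dvd_natCard _)
  obtain ⟨x, hx⟩ := exists_prime_orderOf_dvd_card' 5 h5M
  have hxM : ((x : ↥H) : ↥H) ∈ M := x.2
  have hfac : (Nat.card M).factorization 5 = 1 := by
    have h0 : Nat.card M ≠ 0 := Nat.card_pos.ne'
    have h1 : ¬ 5 ^ 2 ∣ Nat.card M := fun h => h25 (h.trans ((Subgroup.card_subgroup_dvd_card M).trans hHG))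
    have h2 : (Nat.card M).factorization 5 < 2 := by
      by_contra hlt
      exact h1 ((Nat.Prime.pow_dvd_iff_le_factorization (by norm_num) h0).2 (by omega))
    have h3 : 1 ≤ (Nat.card M).factorization 5 :=
      (Nat.Prime.pow_dvd_iff_le_factorization (by norm_num) h0).1 (by rw [pow_one]; exact h5M)
    omega
  let P : Sylow 5 M := Sylow.ofCard (zpowers x) (by rw [Nat.card_zpowers, hx, hfac, pow_one])
  obtain ⟨h0, hh0⟩ := C.surj d
  have hconj : ∀ w : ↥H, w ∈ M → h0 * w * h0⁻¹ ∈ M := by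
    intro w hw
    obtain ⟨k, hk⟩ := mem_zpowers_iff.1 (show ψ w ∈ zpowers c from hw)
    change ψ (h0 * w * h0⁻¹) ∈ zpowers c
    have h1 : d * c * d⁻¹ = c ^ 3 := by
      have h2 : d * c ^ 2 * d⁻¹ = c := by rw [← hd]; group
      have h3 : d * c * d⁻¹ = (d * c ^ 2 * d⁻¹) ^ 3 := by
        rw [conj_pow, ← pow_mul, show 2 * 3 = 5 + 1 by norm_num, pow_add, hc5, one_mul, pow_one]
      rw [h3, h2]
    rw [map_mul, map_mul, map_inv, hh0, ← hk, ← conj_zpow, h1]
    exact zpow_mem (pow_mem (mem_zpowers c) 3) k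
  let x' : M := ⟨h0 * x * h0⁻¹, hconj _ hxM⟩
  have hx' : orderOf x' = 5 := by
    apply orderOf_eq_prime
    · apply Subtype.ext
      change (h0 * (x : ↥H) * h0⁻¹) ^ 5 = 1
      have : ((x : ↥H)) ^ 5 = 1 := by
        have := pow_orderOf_eq_one x
        rw [hx] at this
        exact congrArg Subtype.val this
      rw [conj_pow, this]; group
    · intro h
      have h1 : h0 * (x : ↥H) * h0⁻¹ = 1 := congrArg Subtype.val h
      have h2 : (x : ↥H) = 1 := by
        have : (x : ↥H) = h0⁻¹ * (h0 * (x : ↥H) * h0⁻¹) * h0 := by group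
        rw [this, h1]; group
      have h3 : x = 1 := Subtype.ext h2
      rw [h3, orderOf_one] at hx
      exact absurd hx (by norm_num)
  let Q : Sylow 5 M := Sylow.ofCard (zpowers x') (by rw [Nat.card_zpowers, hx', hfac, pow_one])
  obtain ⟨g, hg⟩ := MulAction.exists_smul_eq M P Q
  have hgx : g * x * g⁻¹ ∈ zpowers x' := by
    have h1 : g * x * g⁻¹ ∈ (Q : Subgroup M) := by
      rw [← hg]
      exact ⟨x, mem_zpowers x, rfl⟩
    exact h1
  obtain ⟨k, hk⟩ := mem_zpowers_iff.1 hgx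
  let u : ↥H := h0⁻¹ * (g : ↥H)
  have hu : u * (x : ↥H) * u⁻¹ = (x : ↥H) ^ k := by
    have h1 : (g : ↥H) * (x : ↥H) * (g : ↥H)⁻¹ = (h0 * (x : ↥H) * h0⁻¹) ^ k := (congrArg Subtype.val hk).symm
    change h0⁻¹ * (g : ↥H) * (x : ↥H) * (h0⁻¹ * (g : ↥H))⁻¹ = _
    have h2 : h0⁻¹ * (g : ↥H) * (x : ↥H) * (h0⁻¹ * (g : ↥H))⁻¹ = h0⁻¹ * ((g : ↥H) * (x : ↥H) * (g : ↥H)⁻¹) * h0 := by group
    rw [h2, h1, conj_zpow]; group
  -- `ψ` is injective on `⟨x⟩`
  have hinj : ∀ w ∈ zpowers (x : ↥H), ψ w = 1 → w = 1 := by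
    intro w hw hw1
    have h1 : orderOf w ∣ 5 := by
      apply orderOf_dvd_of_pow_eq_one
      obtain ⟨j, rfl⟩ := mem_zpowers_iff.1 hw
      have : ((x : ↥H)) ^ 5 = 1 := by
        have := pow_orderOf_eq_one x
        rw [hx] at this
        exact congrArg Subtype.val this
      rw [← zpow_natCast, ← _root_.zpow_mul, mul_comm, _root_.zpow_mul, zpow_natCast, this, _root_.one_zpow]
    rcases (Nat.dvd_prime hf5.out).1 h1 with h2 | h2
    · exact orderOf_eq_one_iff.1 h2
    · exfalso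
      have h3 : orderOf (⟨w, hw1⟩ : ψ.ker) ∣ Nat.card ψ.ker := orderOf_dvd_natCard _
      rw [← Subgroup.orderOf_coe] at h3
      rw [h2, ‹Nat.card ψ.ker = 64 * m›] at h3
      rcases (Nat.Prime.dvd_mul hf5.out).1 h3 with h4 | h4
      · omega
      · exact hm5 h4
  have hux : u * (x : ↥H) * u⁻¹ = (x : ↥H) ^ 2 := by
    rw [hu]
    obtain ⟨j, hj⟩ := mem_zpowers_iff.1 (show ψ (x : ↥H) ∈ zpowers c from hxM)
    obtain ⟨i, hi⟩ := mem_zpowers_iff.1 (show ψ (g : ↥H) ∈ zpowers c from g.2)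
    have h1 : ψ ((x : ↥H) ^ k) = ψ ((x : ↥H) ^ 2) := by
      rw [← hu, map_mul, map_mul, map_inv, map_pow, map_mul, map_inv, hh0, ← hj, ← hi]
      have h2 : d⁻¹ * c ^ i * c ^ j * (d⁻¹ * c ^ i)⁻¹ = d⁻¹ * c ^ j * d := by group
      have h3 : d⁻¹ * c ^ j * d = (d⁻¹ * c * d) ^ j := by
        have := conj_zpow (i := j) (a := d⁻¹) (b := c)
        rw [inv_inv] at this
        exact this.symm
      rw [h2, h3, hd, ← zpow_natCast, ← zpow_natCast, ← _root_.zpow_mul, ← _root_.zpow_mul, mul_comm]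
    have h2 : ψ ((x : ↥H) ^ k * ((x : ↥H) ^ 2)⁻¹) = 1 := by rw [map_mul, map_inv, h1, mul_inv_cancel]
    have h3 := hinj _ (mul_mem (zpow_mem (mem_zpowers _) k) (inv_mem (pow_mem (mem_zpowers _) 2))) h2
    exact mul_inv_eq_one.1 h3
  have hx5 : ((x : ↥H)) ^ 5 = 1 := by
    have := pow_orderOf_eq_one x
    rw [hx] at this
    exact congrArg Subtype.val this
  refine ⟨((x : ↥H) : G), (u : G), congrArg Subtype.val hx5, ?_, ?_, C.z_cen _ (x : ↥H).2⟩
  · intro h
    have h1 : x = 1 := Subtype.ext (Subtype.ext h)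
    rw [h1, orderOf_one] at hx
    exact absurd hx (by norm_num)
  · have h1 : u * (x : ↥H) = (x : ↥H) ^ 2 * u := by rw [← hux]; group
    exact congrArg Subtype.val h1

/-- no faithful representation of dimension 5 in characteristic 2 -/
theorem row_char2 [Finite G] (C : CA H N0 z s ψ) (h25 : ¬ 25 ∣ Nat.card G) {F : Type*} [Field F] [CharP F 2]
    (ρ : G →* Matrix (Fin 5) (Fin 5) F) (hρ : Function.Injective ρ) : False := by
  obtain ⟨x, u, hx5, hx1, hux, hxz⟩ := C.exists_frob h25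
  let K := AlgebraicClosure F
  have : CharP K 2 := charP_of_injective_algebraMap (algebraMap F K).injective 2
  let m : Matrix (Fin 5) (Fin 5) F →* Matrix (Fin 5) (Fin 5) K := ((algebraMap F K).mapMatrix : Matrix (Fin 5) (Fin 5) F →+* Matrix (Fin 5) (Fin 5) K)
  have hm : Function.Injective m := by
    intro x y hxy
    ext i j
    have := congrFun (congrFun hxy i) j
    exact (algebraMap F K).injective this
  let l : Matrix (Fin 5) (Fin 5) K ≃ₐ[K] ((Fin 5 → K) →ₗ[K] (Fin 5 → K)) := Matrix.toLinAlgEquiv'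
  let P : G →* ((Fin 5 → K) →ₗ[K] (Fin 5 → K)) := ((l : Matrix (Fin 5) (Fin 5) K →* _).comp m).comp ρ
  have hP : Function.Injective P := l.injective.comp (hm.comp hρ)
  have h1 := lin2 (K := K) (V := Fin 5 → K) (by simp) (P x) (P u) (P u⁻¹) (P z) (by rw [← map_pow, hx5, map_one])
    (fun h => hx1 (hP (by rw [h, map_one]))) (by rw [← map_mul, inv_mul_cancel, map_one])
    (by rw [← map_mul, hux, map_mul, map_pow]) (by rw [← map_mul, ← hxz, map_mul]) (by rw [← map_mul, C.z_sq, map_one])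
  exact C.z_ne (hP (by rw [h1, map_one]))

end CA

end Cfsg.Agent.H314.Co3
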