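import Cfsg.Agent.H285.TwoPart

/-!
# Known simple groups whose order is divisible by `2 ^ 10` but not by `2 ^ 11` (helper314, after H285/TwoPart)
-/

set_option autoImplicit false

namespace Cfsg.Agent.H314.Co3.Eng

open Cfsg Cfsg.Agent.OrdDiv
open Cfsg.Agent.H285.TwoPart (psl_card psp_card psu_card oodd_card oplus_card ominus_card e2 e2k e4 e8 of_mul_dvd
  prod_dvd_glN prB_dvd prU_dvd prB_three prB_four prU_six d3)

universe u

theorem even_sub {q : ℕ} (k : ℕ) (hq : Odd q) : 2 ∣ q ^ k - 1 := by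
  have h : Odd (q ^ k) := hq.pow
  obtain ⟨c, hc⟩ := h
  exact ⟨c, by omega⟩

theorem even_add {q : ℕ} (k : ℕ) (hq : Odd q) : 2 ∣ q ^ k + 1 := by
  have h : Odd (q ^ k) := hq.pow
  obtain ⟨c, hc⟩ := h
  exact ⟨c + 1, by omega⟩

theorem e12 {q : ℕ} (hq : Odd q) : 16 ∣ q ^ 12 - 1 := by
  have := Nat.sub_dvd_pow_sub_pow (q ^ 4) 1 3
  rw [one_pow, ← pow_mul] at this
  exact (e4 hq).trans this

theorem d4 {q : ℕ} (hq : Odd q) : 2 * 2 ^ 11 ∣ prB q 4 := by
  rw [prB_four]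
  exact (show 2 * 2 ^ 11 ∣ 8 * 16 * 8 * 32 by norm_num).trans
    (mul_dvd_mul (mul_dvd_mul (mul_dvd_mul (e2 hq) (e4 hq)) (e2k 3 hq)) (e8 hq))

theorem psl_ge {n q c : ℕ} (hn : 6 ≤ n) (hq : Odd q) (hq1 : 1 < q) (h : fPSL.den n q * c = fPSL.num n q) :
    2 ^ 11 ∣ c := by
  have h0 : 0 < fPSL.den n q := by
    change 0 < Nat.gcd n (q - 1) * (q - 1)
    exact Nat.mul_pos (Nat.gcd_pos_of_pos_left _ (by omega)) (by omega)
  refine of_mul_dvd h0 h ?_
  change Nat.gcd n (q - 1) * (q - 1) * 2 ^ 11 ∣ glN n q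
  refine dvd_trans ?_ (prod_dvd_glN (q := q) hn)
  have h1 : Nat.gcd n (q - 1) ∣ q ^ 3 - 1 := by
    have := Nat.sub_dvd_pow_sub_pow q 1 3
    rw [one_pow] at this
    exact (Nat.gcd_dvd_right _ _).trans this
  have h2 : ∏ i ∈ Finset.range 6, (q ^ (i + 1) - 1) =
      (q ^ 3 - 1) * (q - 1) * ((q ^ 2 - 1) * (q ^ 4 - 1) * (q ^ 6 - 1) * (q ^ 5 - 1)) := by
    simp only [Finset.prod_range_succ, Finset.prod_range_zero, one_mul, zero_add, pow_one, Nat.reduceAdd]
    ring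
  rw [h2]
  exact mul_dvd_mul (mul_dvd_mul h1 dvd_rfl) ((show 2 ^ 11 ∣ 8 * 16 * 8 * 2 by norm_num).trans
    (mul_dvd_mul (mul_dvd_mul (mul_dvd_mul (e2 hq) (e4 hq)) (e2k 3 hq)) (even_sub 5 hq)))

theorem psu_ge {n q c : ℕ} (hn : 6 ≤ n) (hq : Odd q) (h : fPSU.den n q * c = fPSU.num n q) :
    2 ^ 11 ∣ c := by
  have h0 : 0 < fPSU.den n q := by
    change 0 < Nat.gcd n (q + 1) * (q + 1)
    exact Nat.mul_pos (Nat.gcd_pos_of_pos_left _ (by omega)) (by omega)
  refine of_mul_dvd h0 h ?_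
  change Nat.gcd n (q + 1) * (q + 1) * 2 ^ 11 ∣ q ^ (n * (n - 1) / 2) * prU q n
  refine dvd_trans ?_ ((prU_dvd (q := q) hn).trans (Dvd.intro_left _ rfl))
  have h1 : Nat.gcd n (q + 1) ∣ q ^ 3 + 1 := by
    have := Odd.nat_add_dvd_pow_add_pow q 1 (n := 3) (by decide)
    rw [one_pow] at this
    exact (Nat.gcd_dvd_right _ _).trans this
  have h2 : prU q 6 = (q ^ 3 + 1) * (q + 1) * ((q ^ 2 - 1) * (q ^ 4 - 1) * (q ^ 6 - 1) * (q ^ 5 + 1)) := by
    rw [prU_six]
    ring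
  rw [h2]
  exact mul_dvd_mul (mul_dvd_mul h1 dvd_rfl) ((show 2 ^ 11 ∣ 8 * 16 * 8 * 2 by norm_num).trans
    (mul_dvd_mul (mul_dvd_mul (mul_dvd_mul (e2 hq) (e4 hq)) (e2k 3 hq)) (even_add 5 hq)))

theorem psp_ge {m q c : ℕ} (hm : 4 ≤ m) (hq : Odd q) (h : fPSp.den m q * c = fPSp.num m q) :
    2 ^ 11 ∣ c := by
  have h0 : 0 < fPSp.den m q := by
    change 0 < Nat.gcd 2 (q - 1)
    exact Nat.gcd_pos_of_pos_left _ (by omega)
  refine of_mul_dvd h0 h ?_
  change Nat.gcd 2 (q - 1) * 2 ^ 11 ∣ q ^ (m ^ 2) * prB q m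
  exact (Nat.mul_dvd_mul_right (Nat.gcd_dvd_left _ _) _).trans
    ((d4 hq).trans ((prB_dvd (q := q) hm).trans (Dvd.intro_left _ rfl)))

theorem oodd_ge {m q c : ℕ} (hm : 4 ≤ m) (hq : Odd q) (h : 2 * c = fOOdd.num m q) : 2 ^ 11 ∣ c := by
  refine of_mul_dvd (by norm_num) h ?_
  change 2 * 2 ^ 11 ∣ q ^ (m ^ 2) * prB q m
  exact (d4 hq).trans ((prB_dvd (q := q) hm).trans (Dvd.intro_left _ rfl))

theorem oplus_ge {m q c : ℕ} (hm : 4 ≤ m) (hq : Odd q) (h : fOPlus.den m q * c = fOPlus.num m q) :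
    2 ^ 11 ∣ c := by
  refine of_mul_dvd (d := fOPlus.den m q) (Nat.gcd_pos_of_pos_left _ (by omega)) h ?_
  change Nat.gcd 4 (q ^ m - 1) * 2 ^ 11 ∣ q ^ (m * (m - 1)) * ((q ^ m - 1) * prB q (m - 1))
  refine dvd_trans ?_ (Dvd.intro_left _ rfl)
  rcases Nat.lt_or_ge m 5 with h5 | h5
  · obtain rfl : m = 4 := by omega
    exact (Nat.mul_dvd_mul_right (Nat.gcd_dvd_left _ _) _).trans
      ((show 4 * 2 ^ 11 ∣ 16 * 2 ^ 10 by norm_num).trans (mul_dvd_mul (e4 hq) (d3 hq)))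
  · exact mul_dvd_mul (Nat.gcd_dvd_right _ _) ((Dvd.intro_left _ rfl).trans ((d4 hq).trans (prB_dvd (q := q) (by omega))))

theorem ominus_ge {m q c : ℕ} (hm : 5 ≤ m) (hq : Odd q) (h : fOMinus.den m q * c = fOMinus.num m q) :
    2 ^ 11 ∣ c := by
  refine of_mul_dvd (d := fOMinus.den m q) (Nat.gcd_pos_of_pos_left _ (by omega)) h ?_
  change Nat.gcd 4 (q ^ m + 1) * 2 ^ 11 ∣ q ^ (m * (m - 1)) * ((q ^ m + 1) * prB q (m - 1))
  exact (mul_dvd_mul (Nat.gcd_dvd_right _ _)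
    ((Dvd.intro_left _ rfl).trans ((d4 hq).trans (prB_dvd (q := q) (by omega))))).trans (Dvd.intro_left _ rfl)

theorem d268 {q : ℕ} (hq : Odd q) : 2 * 2 ^ 11 ∣ (q ^ 2 - 1) * (q ^ 6 - 1) * (q ^ 8 - 1) * (q ^ 12 - 1) :=
  (show 2 * 2 ^ 11 ∣ 8 * 8 * 32 * 16 by norm_num).trans
    (mul_dvd_mul (mul_dvd_mul (mul_dvd_mul (e2 hq) (e2k 3 hq)) (e8 hq)) (e12 hq))

theorem exc_ge {q c d N : ℕ} (hq : Odd q) (hd : d ∣ 2 ∨ d ∣ 3) (h : d * c = N)
    (hN : (q ^ 2 - 1) * (q ^ 6 - 1) * (q ^ 8 - 1) * (q ^ 12 - 1) ∣ N) : 2 ^ 11 ∣ c := by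
  have h1 := (d268 hq).trans hN
  rcases hd with hd | hd
  · refine of_mul_dvd (Nat.pos_of_dvd_of_pos hd (by norm_num)) h ((Nat.mul_dvd_mul_right hd _).trans h1)
  · rw [← h] at h1
    have h2 : Nat.Coprime (2 ^ 11) d := Nat.Coprime.coprime_dvd_right hd (by norm_num)
    exact h2.dvd_of_dvd_mul_left ((Dvd.intro_left _ rfl).trans h1)

/-! ### even characteristic -/

theorem even_box {D : Fam} {n q c : ℕ} (hq : IsPrimePow q) (he : ¬ Odd q) (hlo : D.lo ≤ n) (hn : n ≤ D.e n + 1)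
    (he1 : 1 ≤ D.e n) (hok : D.ok n q = true) (hc : D.den n q * c = D.num n q) (hpow : q ^ D.e n ∣ D.num n q)
    (hcop : (D.den n q).Coprime q) (h10 : ¬ 2 ^ 11 ∣ c) :
    (n, q) ∈ (box [(2, 10)] D.e D.lo).filter (fun x => D.ok x.1 x.2) ∧ c = D.num n q / D.den n q := by
  refine ⟨?_, div_eq hq hcop hc⟩
  rw [List.mem_filter]
  refine ⟨?_, hok⟩
  obtain ⟨p, f, hp, hf, rfl⟩ := (isPrimePow_nat_iff q).1 hq
  obtain rfl : p = 2 := by
    rcases hp.eq_two_or_odd' with h | h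
    · exact h
    · exact absurd h.pow he
  have h1 : (2 ^ f) ^ D.e n ∣ c := by
    rw [← hc] at hpow
    exact Nat.Coprime.dvd_of_dvd_mul_left (Nat.Coprime.pow_left _ hcop.symm) hpow
  rw [← pow_mul] at h1
  refine mem_box (k := 10) (List.mem_singleton.2 rfl) hf hlo hn he1 ?_
  by_contra hlt
  exact h10 ((pow_dvd_pow 2 (by rw [mul_comm]; omega)).trans h1)

/-- the explicit list: even characteristic and sporadic groups -/
def small : List Grp :=
  List.flatten [
    ((box [(2, 10)] fPSL.e fPSL.lo).filter (fun x => fPSL.ok x.1 x.2)).map (fun x => Grp.psl x.1 x.2),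
    ((box [(2, 10)] fPSp.e fPSp.lo).filter (fun x => fPSp.ok x.1 x.2)).map (fun x => Grp.psp x.1 x.2),
    ((box [(2, 10)] fPSU.e fPSU.lo).filter (fun x => fPSU.ok x.1 x.2)).map (fun x => Grp.psu x.1 x.2),
    ((box [(2, 10)] fOPlus.e fOPlus.lo).filter (fun x => fOPlus.ok x.1 x.2)).map (fun x => Grp.oplus x.1 x.2),
    ((box [(2, 10)] fOMinus.e fOMinus.lo).filter (fun x => fOMinus.ok x.1 x.2)).map (fun x => Grp.ominus x.1 x.2),
    ((box [(2, 10)] fG2.e fG2.lo).filter (fun x => fG2.ok x.1 x.2)).map (fun x => Grp.g2 x.2),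
    ((box [(2, 10)] fF4.e fF4.lo).filter (fun x => fF4.ok x.1 x.2)).map (fun x => Grp.f4 x.2),
    ((box [(2, 10)] fE6.e fE6.lo).filter (fun x => fE6.ok x.1 x.2)).map (fun x => Grp.e6 x.2),
    ((box [(2, 10)] fE7.e fE7.lo).filter (fun x => fE7.ok x.1 x.2)).map (fun x => Grp.e7 x.2),
    ((box [(2, 10)] fE8.e fE8.lo).filter (fun x => fE8.ok x.1 x.2)).map (fun x => Grp.e8 x.2),
    ((box [(2, 10)] fTE6.e fTE6.lo).filter (fun x => fTE6.ok x.1 x.2)).map (fun x => Grp.te6 x.2),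
    ((box [(2, 10)] fTD4.e fTD4.lo).filter (fun x => fTD4.ok x.1 x.2)).map (fun x => Grp.td4 x.2),
    ((box [(2, 10)] fSz.e fSz.lo).filter (fun x => fSz.ok x.1 x.2)).map (fun x => Grp.sz x.2),
    ((box [(2, 10)] fTF4.e fTF4.lo).filter (fun x => fTF4.ok x.1 x.2)).map (fun x => Grp.tf4 x.2),
    (spor.filter (fun x => x.2 % 2048 != 0)).map (fun x => x.1)]

theorem mem_small {g : Grp} (i : Fin 15)
    (h : g ∈ ([
    ((box [(2, 10)] fPSL.e fPSL.lo).filter (fun x => fPSL.ok x.1 x.2)).map (fun x => Grp.psl x.1 x.2),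
    ((box [(2, 10)] fPSp.e fPSp.lo).filter (fun x => fPSp.ok x.1 x.2)).map (fun x => Grp.psp x.1 x.2),
    ((box [(2, 10)] fPSU.e fPSU.lo).filter (fun x => fPSU.ok x.1 x.2)).map (fun x => Grp.psu x.1 x.2),
    ((box [(2, 10)] fOPlus.e fOPlus.lo).filter (fun x => fOPlus.ok x.1 x.2)).map (fun x => Grp.oplus x.1 x.2),
    ((box [(2, 10)] fOMinus.e fOMinus.lo).filter (fun x => fOMinus.ok x.1 x.2)).map (fun x => Grp.ominus x.1 x.2),
    ((box [(2, 10)] fG2.e fG2.lo).filter (fun x => fG2.ok x.1 x.2)).map (fun x => Grp.g2 x.2),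
    ((box [(2, 10)] fF4.e fF4.lo).filter (fun x => fF4.ok x.1 x.2)).map (fun x => Grp.f4 x.2),
    ((box [(2, 10)] fE6.e fE6.lo).filter (fun x => fE6.ok x.1 x.2)).map (fun x => Grp.e6 x.2),
    ((box [(2, 10)] fE7.e fE7.lo).filter (fun x => fE7.ok x.1 x.2)).map (fun x => Grp.e7 x.2),
    ((box [(2, 10)] fE8.e fE8.lo).filter (fun x => fE8.ok x.1 x.2)).map (fun x => Grp.e8 x.2),
    ((box [(2, 10)] fTE6.e fTE6.lo).filter (fun x => fTE6.ok x.1 x.2)).map (fun x => Grp.te6 x.2),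
    ((box [(2, 10)] fTD4.e fTD4.lo).filter (fun x => fTD4.ok x.1 x.2)).map (fun x => Grp.td4 x.2),
    ((box [(2, 10)] fSz.e fSz.lo).filter (fun x => fSz.ok x.1 x.2)).map (fun x => Grp.sz x.2),
    ((box [(2, 10)] fTF4.e fTF4.lo).filter (fun x => fTF4.ok x.1 x.2)).map (fun x => Grp.tf4 x.2),
    (spor.filter (fun x => x.2 % 2048 != 0)).map (fun x => x.1)] : List (List Grp)).get i) : g ∈ small := by
  unfold small
  exact List.mem_flatten.2 ⟨_, by exact List.get_mem (l := [_, _, _, _, _, _, _, _, _, _, _, _, _, _, _]) i, h⟩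

/-- one-parameter families in even characteristic -/
theorem one_even {a : ℕ} {f den : ℕ → ℕ} {ok : ℕ → Bool} {q c : ℕ} (ha : 1 ≤ a) (hq : IsPrimePow q) (he : ¬ Odd q)
    (hok : ok q = true) (hc : den q * c = q ^ a * f q) (hcop : (den q).Coprime q) (h10 : ¬ 2 ^ 11 ∣ c) :
    (0, q) ∈ (box [(2, 10)] (one a f den ok).e (one a f den ok).lo).filter (fun x => (one a f den ok).ok x.1 x.2) ∧
      c = (one a f den ok).num 0 q / (one a f den ok).den 0 q :=
  even_box (D := one a f den ok) hq he (Nat.zero_le _) (Nat.zero_le _) (by change 1 ≤ a + 1000 * 0; omega) hok hc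
    (by change q ^ (a + 1000 * 0) ∣ q ^ a * f q; rw [mul_zero, add_zero]; exact Dvd.intro _ rfl) hcop h10

/-- what remains if `2 ^ 11` does not divide the order -/
def Rest (G : Type u) [Group G] : Prop :=
  (∃ n : ℕ, 5 ≤ n ∧ n ≤ 15 ∧ Nonempty (G ≃* ↥(alternatingGroup (Fin n)))) ∨
  (∃ (F : Type) (_ : Field F) (_ : Fintype F) (n : ℕ), Odd (Fintype.card F) ∧ 2 ≤ n ∧ n ≤ 5 ∧
    Nonempty (G ≃* Matrix.ProjectiveSpecialLinearGroup (Fin n) F)) ∨
  (∃ (F : Type) (_ : Field F) (_ : Fintype F) (m : ℕ), Odd (Fintype.card F) ∧ 2 ≤ m ∧ m ≤ 3 ∧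
    Nonempty (G ≃* PSp m F)) ∨
  (∃ (F : Type) (_ : Field F) (_ : Fintype F) (n q : ℕ), Fintype.card F = q ^ 2 ∧ Odd q ∧ 3 ≤ n ∧ n ≤ 5 ∧
    Nonempty (G ≃* PSU n F q)) ∨
  (∃ (F : Type) (_ : Field F) (_ : Fintype F), Odd (Fintype.card F) ∧
    Nonempty (G ≃* POmega F (quadFormOdd 3 F))) ∨
  (∃ (F : Type) (_ : Field F) (_ : Fintype F), Odd (Fintype.card F) ∧ Nonempty (G ≃* ↥(Lie.chevG2.group F))) ∨
  (∃ (F : Type) (_ : Field F) (_ : Fintype F) (q : ℕ), Odd q ∧ IsPrimePow q ∧ Fintype.card F = q ^ 3 ∧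
    Nonempty (G ≃* ↥(Lie.twistedD4 F q))) ∨
  Lie.IsoRee G ∨
  (∃ (F : Type) (_ : Field F) (_ : Fintype F) (a b : F), Odd (Fintype.card F) ∧
    (∀ z₁ z₂ : F, z₁ ^ 2 + a * z₁ * z₂ + b * z₂ ^ 2 = 0 → z₁ = 0 ∧ z₂ = 0) ∧
    Nonempty (G ≃* POmega F (quadFormMinus 3 F a b))) ∨
  (∃ g ∈ small, Real g G ∧ Nat.card G = ordN g)

theorem spor_small {g : Grp} {o : ℕ} (hg : (g, o) ∈ spor) (h10 : ¬ 2 ^ 11 ∣ o) : g ∈ small := by
  refine mem_small 14 (List.mem_map.2 ⟨(g, o), List.mem_filter.2 ⟨hg, ?_⟩, rfl⟩)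
  have : o % 2048 ≠ 0 := fun h => h10 (Nat.dvd_of_mod_eq_zero h)
  simpa using this

theorem rest_psl {F : Type} [Field F] [Fintype F] {n : ℕ} (hn : 2 ≤ n) (hn2 : n = 2 → 4 ≤ Fintype.card F)
    (h10 : ¬ 2 ^ 11 ∣ Nat.card (Matrix.ProjectiveSpecialLinearGroup (Fin n) F)) :
    (Odd (Fintype.card F) ∧ n ≤ 5) ∨ (.psl n (Fintype.card F) ∈ small ∧
      Nat.card (Matrix.ProjectiveSpecialLinearGroup (Fin n) F) = ordN (.psl n (Fintype.card F))) := by
  have hq : 1 < Fintype.card F := Fintype.one_lt_card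
  have hc := psl_card (F := F) hn
  by_cases ho : Odd (Fintype.card F)
  · left
    refine ⟨ho, ?_⟩
    by_contra hlt
    exact h10 (psl_ge (by omega) ho hq hc)
  · right
    have hok : fPSL.ok n (Fintype.card F) = true := by
      change (!(Nat.beq n 2 && Nat.blt (Fintype.card F) 4)) = true
      by_cases h2 : n = 2
      · have h4 := hn2 h2
        have : Nat.blt (Fintype.card F) 4 = false := by
          rw [← Bool.not_eq_true, Nat.blt_eq]
          omega
        rw [this, Bool.and_false]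
        rfl
      · have : Nat.beq n 2 = false := by
          rw [← Bool.not_eq_true, Nat.beq_eq]
          exact h2
        rw [this, Bool.false_and]
        rfl
    have hcop : (fPSL.den n (Fintype.card F)).Coprime (Fintype.card F) := by
      change (Nat.gcd n (Fintype.card F - 1) * (Fintype.card F - 1)).Coprime (Fintype.card F)
      have h1 := cop_sub (q := Fintype.card F) (k := 1) (by omega) le_rfl
      rw [pow_one] at h1
      exact Nat.Coprime.mul_left (Nat.Coprime.coprime_dvd_left (Nat.gcd_dvd_right _ _) h1) h1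
    obtain ⟨h1, h2⟩ := even_box (D := fPSL) Fintype.isPrimePow_card_of_field ho hn (le_tri hn).1 (le_tri hn).2 hok hc
      (pow_dvd_glN n _) hcop h10
    exact ⟨mem_small 0 (List.mem_map.2 ⟨_, h1, rfl⟩), h2⟩

theorem rest_psp {F : Type} [Field F] [Fintype F] {m : ℕ} (hm : 2 ≤ m) (hm2 : m = 2 → 3 ≤ Fintype.card F)
    (h10 : ¬ 2 ^ 11 ∣ Nat.card (PSp m F)) :
    (Odd (Fintype.card F) ∧ m ≤ 3) ∨ (.psp m (Fintype.card F) ∈ small ∧
      Nat.card (PSp m F) = ordN (.psp m (Fintype.card F))) := by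
  have hq : 1 < Fintype.card F := Fintype.one_lt_card
  have hc := psp_card (F := F) (m := m) (by omega)
  by_cases ho : Odd (Fintype.card F)
  · left
    refine ⟨ho, ?_⟩
    by_contra hlt
    exact h10 (psp_ge (by omega) ho hc)
  · right
    have hmm : m ≤ m ^ 2 := by nlinarith
    have hok : fPSp.ok m (Fintype.card F) = true := by
      change (!(Nat.beq m 2 && Nat.blt (Fintype.card F) 3)) = true
      by_cases h2 : m = 2
      · have h4 := hm2 h2
        have : Nat.blt (Fintype.card F) 3 = false := by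
          rw [← Bool.not_eq_true, Nat.blt_eq]
          omega
        rw [this, Bool.and_false]
        rfl
      · have : Nat.beq m 2 = false := by
          rw [← Bool.not_eq_true, Nat.beq_eq]
          exact h2
        rw [this, Bool.false_and]
        rfl
    have hcop : (fPSp.den m (Fintype.card F)).Coprime (Fintype.card F) := by
      change (Nat.gcd 2 (Fintype.card F - 1)).Coprime (Fintype.card F)
      have h1 := cop_sub (q := Fintype.card F) (k := 1) (by omega) le_rfl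
      rw [pow_one] at h1
      exact Nat.Coprime.coprime_dvd_left (Nat.gcd_dvd_right _ _) h1
    obtain ⟨h1, h2⟩ := even_box (D := fPSp) Fintype.isPrimePow_card_of_field ho hm (hmm.trans (Nat.le_succ _))
      (Nat.one_le_pow _ _ (by omega)) hok hc (Dvd.intro _ rfl) hcop h10
    exact ⟨mem_small 1 (List.mem_map.2 ⟨_, h1, rfl⟩), h2⟩

theorem rest_psu {F : Type} [Field F] [Fintype F] {n q : ℕ} (hF : Fintype.card F = q ^ 2) (hn : 3 ≤ n)
    (hn2 : ¬ (n = 3 ∧ q = 2)) (h10 : ¬ 2 ^ 11 ∣ Nat.card (PSU n F q)) :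
    (Odd q ∧ n ≤ 5) ∨ (.psu n q ∈ small ∧ Nat.card (PSU n F q) = ordN (.psu n q)) := by
  have hq2 : IsPrimePow (q ^ 2) := hF ▸ Fintype.isPrimePow_card_of_field
  have hqp : IsPrimePow q := (isPrimePow_pow_iff (by norm_num)).1 hq2
  have hc := psu_card hF (n := n) (by omega)
  by_cases ho : Odd q
  · left
    refine ⟨ho, ?_⟩
    by_contra hlt
    exact h10 (psu_ge (by omega) ho hc)
  · right
    have hok : fPSU.ok n q = true := by
      change (!(Nat.beq n 3 && Nat.beq q 2)) = true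
      by_cases h2 : n = 3
      · have h4 : q ≠ 2 := fun h => hn2 ⟨h2, h⟩
        have : Nat.beq q 2 = false := by
          rw [← Bool.not_eq_true, Nat.beq_eq]
          exact h4
        rw [this, Bool.and_false]
        rfl
      · have : Nat.beq n 3 = false := by
          rw [← Bool.not_eq_true, Nat.beq_eq]
          exact h2
        rw [this, Bool.false_and]
        rfl
    have hcop : (fPSU.den n q).Coprime q := by
      change (Nat.gcd n (q + 1) * (q + 1)).Coprime q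
      have h1 := cop_add (q := q) (k := 1) le_rfl
      rw [pow_one] at h1
      exact Nat.Coprime.mul_left (Nat.Coprime.coprime_dvd_left (Nat.gcd_dvd_right _ _) h1) h1
    obtain ⟨h1, h2⟩ := even_box (D := fPSU) hqp ho hn (le_tri (by omega)).1 (le_tri (by omega)).2 hok hc
      (Dvd.intro _ rfl) hcop h10
    exact ⟨mem_small 2 (List.mem_map.2 ⟨_, h1, rfl⟩), h2⟩

theorem rest_oplus {F : Type} [Field F] [Fintype F] {m : ℕ} (hm : 4 ≤ m) :
    2 ^ 11 ∣ Nat.card (POmega F (quadFormPlus m F)) := by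
  by_contra h10
  have hq : 1 < Fintype.card F := Fintype.one_lt_card
  have hc := oplus_card (F := F) hm
  by_cases ho : Odd (Fintype.card F)
  · exact h10 (oplus_ge hm ho hc)
  · have hmm : m ≤ m * (m - 1) := Nat.le_mul_of_pos_right _ (by omega)
    obtain ⟨h1, h2⟩ := even_box (D := fOPlus) Fintype.isPrimePow_card_of_field ho hm (hmm.trans (Nat.le_succ _))
      (le_trans (by omega) hmm) rfl hc (Dvd.intro _ rfl)
      (by
        change (Nat.gcd 4 (Fintype.card F ^ m - 1)).Coprime (Fintype.card F)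
        exact Nat.Coprime.coprime_dvd_left (Nat.gcd_dvd_right _ _) (cop_sub (by omega) (by omega))) h10
    have h3 : ∀ x ∈ (box [(2, 10)] fOPlus.e fOPlus.lo).filter (fun x => fOPlus.ok x.1 x.2), False := by
      decide +kernel
    exact h3 _ h1

theorem rest_ominus {F : Type} [Field F] [Fintype F] {m : ℕ} (hm : 4 ≤ m) {a b : F}
    (hab : ∀ z₁ z₂ : F, z₁ ^ 2 + a * z₁ * z₂ + b * z₂ ^ 2 = 0 → z₁ = 0 ∧ z₂ = 0)
    (hm4 : ¬ (m = 4 ∧ Odd (Fintype.card F))) :
    2 ^ 11 ∣ Nat.card (POmega F (quadFormMinus (m - 1) F a b)) := by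
  by_contra h10
  have hq : 1 < Fintype.card F := Fintype.one_lt_card
  have hc := ominus_card (F := F) hm hab
  by_cases ho : Odd (Fintype.card F)
  · exact h10 (ominus_ge (by by_contra h5; exact hm4 ⟨by omega, ho⟩) ho hc)
  · have hmm : m ≤ m * (m - 1) := Nat.le_mul_of_pos_right _ (by omega)
    obtain ⟨h1, h2⟩ := even_box (D := fOMinus) Fintype.isPrimePow_card_of_field ho hm (hmm.trans (Nat.le_succ _))
      (le_trans (by omega) hmm) rfl hc (Dvd.intro _ rfl)
      (by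
        change (Nat.gcd 4 (Fintype.card F ^ m + 1)).Coprime (Fintype.card F)
        exact Nat.Coprime.coprime_dvd_left (Nat.gcd_dvd_right _ _) (cop_add (by omega))) h10
    have h3 : ∀ x ∈ (box [(2, 10)] fOMinus.e fOMinus.lo).filter (fun x => fOMinus.ok x.1 x.2), False := by
      decide +kernel
    exact h3 _ h1

/-- an exceptional family with large 2-part -/
theorem exc_all {a : ℕ} {f den : ℕ → ℕ} {q c : ℕ} (ha : 11 ≤ a)
    (hd : den q ∣ 2 ∨ den q ∣ 3) (hc : den q * c = q ^ a * f q) (hcop : (den q).Coprime q)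
    (hf : (q ^ 2 - 1) * (q ^ 6 - 1) * (q ^ 8 - 1) * (q ^ 12 - 1) ∣ f q ∨ ¬ Odd q) : 2 ^ 11 ∣ c := by
  by_cases ho : Odd q
  · have hf' := hf.resolve_right (by simpa using ho)
    exact exc_ge ho hd hc (hf'.trans (Dvd.intro_left _ rfl))
  · have h1 : q ^ a ∣ c := by
      have h2 : q ^ a ∣ den q * c := by rw [hc]; exact Dvd.intro _ rfl
      exact Nat.Coprime.dvd_of_dvd_mul_left (Nat.Coprime.pow_left _ hcop.symm) h2
    have h2 : 2 ∣ q := (Nat.not_odd_iff_even.1 ho).two_dvd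
    exact ((pow_dvd_pow 2 ha).trans (pow_dvd_pow_of_dvd h2 a)).trans h1

/-- **The main list.** -/
theorem main (T : OrderTable.{u}) {G : Type u} [Group G] (h : IsKnownSimple' G)
    (hna : ¬ ∀ a b : G, a * b = b * a) (h10 : ¬ 2 ^ 11 ∣ Nat.card G) : Rest G := by
  have key : ∀ (g : Grp), g ∈ spor.map (fun x => x.1) → Real g G → Rest G := fun g hg hr => by
    obtain ⟨x, hx, rfl⟩ := List.mem_map.1 hg
    have h1 := T.spor G x hx hr
    iterate 9 right
    exact ⟨x.1, spor_small (g := x.1) (o := x.2) hx (by rw [← h1]; exact h10), hr, h1.trans (spor_ord x hx).symm⟩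
  rcases h with h | h | h | h | h | h | h | h | h | h
  · exfalso
    have : Fact (Nat.card G).Prime := ⟨h⟩
    have : IsCyclic G := isCyclic_of_prime_card (p := Nat.card G) rfl
    exact hna fun a b => (IsCyclic.isMulCommutative (α := G)).is_comm.comm a b
  · obtain ⟨n, hn, ⟨e⟩⟩ := h
    left
    refine ⟨n, hn, ?_, ⟨e⟩⟩
    by_contra hlt
    have h1 := alt_card hn e
    have h2 : Nat.factorial 16 ∣ 2 * Nat.card G := by rw [← h1]; exact Nat.factorial_dvd_factorial (by omega)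
    have h3 : 2 * 2 ^ 11 ∣ 2 * Nat.card G := (show 2 * 2 ^ 11 ∣ Nat.factorial 16 by decide +kernel).trans h2
    exact h10 (Nat.dvd_of_mul_dvd_mul_left (by norm_num) h3)
  · obtain ⟨F, _, _, n, hn, hn2, ⟨e⟩⟩ := h
    have hcc := Nat.card_congr e.toEquiv
    rw [hcc] at h10
    rcases rest_psl hn hn2 h10 with h | ⟨h1, h2⟩
    · right; left
      exact ⟨F, inferInstance, inferInstance, n, h.1, hn, h.2, ⟨e⟩⟩
    · iterate 9 right
      exact ⟨_, h1, ⟨F, inferInstance, inferInstance, rfl, ⟨e⟩⟩, hcc.trans h2⟩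
  · obtain ⟨F, _, _, n, hn, hn2, ⟨e⟩⟩ := h
    have hcc := Nat.card_congr e.toEquiv
    rw [hcc] at h10
    rcases rest_psp hn hn2 h10 with h | ⟨h1, h2⟩
    · iterate 2 right
      left
      exact ⟨F, inferInstance, inferInstance, n, h.1, hn, h.2, ⟨e⟩⟩
    · iterate 9 right
      exact ⟨_, h1, ⟨F, inferInstance, inferInstance, rfl, ⟨e⟩⟩, hcc.trans h2⟩
  · obtain ⟨F, _, _, n, q, hF, hn, hn2, ⟨e⟩⟩ := h
    have hcc := Nat.card_congr e.toEquiv
    rw [hcc] at h10
    rcases rest_psu hF hn hn2 h10 with h | ⟨h1, h2⟩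
    · iterate 3 right
      left
      exact ⟨F, inferInstance, inferInstance, n, q, hF, h.1, hn, h.2, ⟨e⟩⟩
    · iterate 9 right
      exact ⟨_, h1, ⟨F, inferInstance, inferInstance, hF, ⟨e⟩⟩, hcc.trans h2⟩
  · obtain ⟨F, _, _, n, hn, ho, ⟨e⟩⟩ := h
    rw [Nat.card_congr e.toEquiv] at h10
    obtain rfl : n = 3 := by
      by_contra hne
      exact h10 (oodd_ge (by omega) ho (oodd_card hn ho))
    iterate 4 right
    left
    exact ⟨F, inferInstance, inferInstance, ho, ⟨e⟩⟩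
  · obtain ⟨F, _, _, n, hn, ⟨e⟩⟩ := h
    rw [Nat.card_congr e.toEquiv] at h10
    exact absurd (rest_oplus hn) h10
  · obtain ⟨F, _, _, n, a, b, hn, hab, ⟨e⟩⟩ := h
    rw [Nat.card_congr e.toEquiv] at h10
    by_cases h4 : n = 4 ∧ Odd (Fintype.card F)
    · obtain ⟨rfl, ho⟩ := h4
      iterate 8 right
      left
      exact ⟨F, inferInstance, inferInstance, a, b, ho, hab, ⟨e⟩⟩
    · exact absurd (rest_ominus hn hab h4) h10
  · rcases h with h | h | h | h | h | h | h | h | h | h | h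
    · obtain ⟨F, _, _, hq, ⟨e⟩⟩ := h
      have hcc := Nat.card_congr e.toEquiv
      rw [hcc] at h10
      by_cases ho : Odd (Fintype.card F)
      · iterate 5 right
        left
        exact ⟨F, inferInstance, inferInstance, ho, ⟨e⟩⟩
      · exfalso
        obtain ⟨h1, -⟩ : (0, Fintype.card F) ∈ (box [(2, 10)] fG2.e fG2.lo).filter (fun x => fG2.ok x.1 x.2) ∧
            Nat.card ↥(Lie.chevG2.group F) = fG2.num 0 (Fintype.card F) / fG2.den 0 (Fintype.card F) :=
          one_even (a := 6) (f := fun q => (q ^ 2 - 1) * (q ^ 6 - 1)) (den := fun _ => 1)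
            (ok := fun q => Nat.ble 3 q) (by norm_num) Fintype.isPrimePow_card_of_field ho (by rw [Nat.ble_eq]; exact hq)
            (by rw [T.g2 F]; ring) (Nat.coprime_one_left _) h10
        have h3 : ∀ x ∈ (box [(2, 10)] fG2.e fG2.lo).filter (fun x => fG2.ok x.1 x.2), False := by
          decide +kernel
        exact h3 _ h1
    · obtain ⟨F, _, _, ⟨e⟩⟩ := h
      rw [Nat.card_congr e.toEquiv] at h10
      refine absurd (exc_all (a := 24) (f := fun q => (q ^ 2 - 1) * (q ^ 6 - 1) * (q ^ 8 - 1) * (q ^ 12 - 1))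
        (den := fun _ => 1) (q := Fintype.card F) (by norm_num)
        (Or.inl (one_dvd _)) (by rw [T.f4 F _ rfl]; ring)
        (Nat.coprime_one_left _) (Or.inl dvd_rfl)) h10
    · obtain ⟨F, _, _, ⟨e⟩⟩ := h
      rw [Nat.card_congr e.toEquiv] at h10
      have h0 := cop_sub (q := Fintype.card F) (k := 1) Fintype.card_pos le_rfl
      rw [pow_one] at h0
      refine absurd (exc_all (a := 36)
        (f := fun q => (q ^ 2 - 1) * (q ^ 5 - 1) * (q ^ 6 - 1) * (q ^ 8 - 1) * (q ^ 9 - 1) * (q ^ 12 - 1))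
        (den := fun q => Nat.gcd 3 (q - 1)) (q := Fintype.card F) (by norm_num)
        (Or.inr (Nat.gcd_dvd_left _ _)) (by rw [T.e6 F _ rfl]; ring)
        (Nat.Coprime.coprime_dvd_left (Nat.gcd_dvd_right _ _) h0)
        (Or.inl ⟨(Fintype.card F ^ 5 - 1) * (Fintype.card F ^ 9 - 1), by ring⟩)) h10
    · obtain ⟨F, _, _, ⟨e⟩⟩ := h
      rw [Nat.card_congr e.toEquiv] at h10
      have h0 := cop_sub (q := Fintype.card F) (k := 1) Fintype.card_pos le_rfl
      rw [pow_one] at h0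
      refine absurd (exc_all (a := 63)
        (f := fun q => (q ^ 2 - 1) * (q ^ 6 - 1) * (q ^ 8 - 1) * (q ^ 10 - 1) * (q ^ 12 - 1) *
          (q ^ 14 - 1) * (q ^ 18 - 1))
        (den := fun q => Nat.gcd 2 (q - 1)) (q := Fintype.card F) (by norm_num)
        (Or.inl (Nat.gcd_dvd_left _ _)) (by rw [T.e7 F _ rfl]; ring)
        (Nat.Coprime.coprime_dvd_left (Nat.gcd_dvd_right _ _) h0)
        (Or.inl ⟨(Fintype.card F ^ 10 - 1) * (Fintype.card F ^ 14 - 1) *
          (Fintype.card F ^ 18 - 1), by ring⟩)) h10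
    · obtain ⟨F, _, _, ⟨e⟩⟩ := h
      rw [Nat.card_congr e.toEquiv] at h10
      refine absurd (exc_all (a := 120)
        (f := fun q => (q ^ 2 - 1) * (q ^ 8 - 1) * (q ^ 12 - 1) * (q ^ 14 - 1) * (q ^ 18 - 1) *
          (q ^ 20 - 1) * (q ^ 24 - 1) * (q ^ 30 - 1))
        (den := fun _ => 1) (q := Fintype.card F) (by norm_num)
        (Or.inl (one_dvd _)) (by rw [T.e8 F _ rfl]; ring)
        (Nat.coprime_one_left _) (Or.inl ?_)) h10
      have h12 : Fintype.card F ^ 6 - 1 ∣ Fintype.card F ^ 18 - 1 := by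
        have := Nat.sub_dvd_pow_sub_pow (Fintype.card F ^ 6) 1 3
        rwa [one_pow, ← pow_mul] at this
      obtain ⟨k, hk⟩ := h12
      refine ⟨k * (Fintype.card F ^ 14 - 1) * (Fintype.card F ^ 20 - 1) *
        (Fintype.card F ^ 24 - 1) * (Fintype.card F ^ 30 - 1), ?_⟩
      rw [hk]
      ring
    · obtain ⟨F, _, _, q, hq, hF, ⟨e⟩⟩ := h
      rw [Nat.card_congr e.toEquiv] at h10
      have h0 := cop_add (q := q) (k := 1) le_rfl
      rw [pow_one] at h0
      refine absurd (exc_all (a := 36)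
        (f := fun q => (q ^ 2 - 1) * (q ^ 5 + 1) * (q ^ 6 - 1) * (q ^ 8 - 1) * (q ^ 9 + 1) * (q ^ 12 - 1))
        (den := fun q => Nat.gcd 3 (q + 1)) (q := q) (by norm_num)
        (Or.inr (Nat.gcd_dvd_left _ _)) (by rw [T.te6 F q hq hF]; ring)
        (Nat.Coprime.coprime_dvd_left (Nat.gcd_dvd_right _ _) h0)
        (Or.inl ⟨(q ^ 5 + 1) * (q ^ 9 + 1), by ring⟩)) h10
    · obtain ⟨F, _, _, q, hq, hF, ⟨e⟩⟩ := h
      rw [Nat.card_congr e.toEquiv] at h10
      by_cases ho : Odd q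
      · iterate 6 right
        left
        exact ⟨F, inferInstance, inferInstance, q, ho, hq, hF, ⟨e⟩⟩
      · exact absurd (exc_all (a := 12) (f := fun q => (q ^ 2 - 1) * (q ^ 6 - 1) * (q ^ 8 + q ^ 4 + 1))
          (den := fun _ => 1) (q := q) (by norm_num)
          (Or.inl (one_dvd _)) (by rw [T.td4 F q hq hF]; ring) (Nat.coprime_one_left _) (Or.inr ho)) h10
    · obtain ⟨F, _, _, m, hm, hF, ⟨e⟩⟩ := h
      have hcc := Nat.card_congr e.toEquiv
      rw [hcc] at h10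
      obtain ⟨h1, h2⟩ : (0, 2 ^ (2 * m + 1)) ∈ (box [(2, 10)] fSz.e fSz.lo).filter (fun x => fSz.ok x.1 x.2) ∧
          Nat.card ↥(Lie.Sz F (2 ^ (m + 1))) = fSz.num 0 (2 ^ (2 * m + 1)) / fSz.den 0 (2 ^ (2 * m + 1)) :=
        one_even (a := 2) (f := fun q => (q - 1) * (q ^ 2 + 1)) (den := fun _ => 1)
          (ok := fun q => Nat.blt 2 q && Nat.beq (q % 2) 0 && Nat.beq (q % 3) 2) (by norm_num) (Nat.prime_two.isPrimePow.pow (by omega))
          (by rw [Nat.not_odd_iff_even]; exact (even_two).pow_of_ne_zero (by omega)) (ok_two hm)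
          (by rw [T.sz F m hm hF]; ring) (Nat.coprime_one_left _) h10
      iterate 9 right
      exact ⟨.sz (2 ^ (2 * m + 1)), mem_small 12 (List.mem_map.2 ⟨_, h1, rfl⟩),
        ⟨F, inferInstance, inferInstance, m, hm, hF, rfl, ⟨e⟩⟩, hcc.trans h2⟩
    · iterate 7 right
      left
      exact h
    · obtain ⟨F, _, _, m, hm, hF, ⟨e⟩⟩ := h
      rw [Nat.card_congr e.toEquiv] at h10
      exact absurd (exc_all (a := 12) (f := fun q => (q - 1) * (q ^ 3 + 1) * (q ^ 4 - 1) * (q ^ 6 + 1))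
        (den := fun _ => 1) (q := 2 ^ (2 * m + 1)) (by norm_num)
        (Or.inl (one_dvd _)) (by rw [T.tf4 F m hm hF]; ring)
        (Nat.coprime_one_left _)
        (Or.inr (by rw [Nat.not_odd_iff_even]; exact (even_two).pow_of_ne_zero (by omega)))) h10
    · exact key .tits (by decide) h
  · rcases h with h | h | h | h | h | h | h | h | h | h | h | h | h | h | h | h | h | h | h | h | h | h | h | h | h | h
    · exact key .m11 (by decide) h
    · exact key .m12 (by decide) h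
    · exact key .m22 (by decide) h
    · exact key .m23 (by decide) h
    · exact key .m24 (by decide) h
    · exact key .j1 (by decide) h
    · exact key .j2 (by decide) h
    · exact key .j3 (by decide) h
    · exact key .j4 (by decide) h
    · exact key .co1 (by decide) h
    · exact key .co2 (by decide) h
    · exact key .co3 (by decide) h
    · exact key .mcl (by decide) h
    · exact key .hs (by decide) h
    · exact key .suz (by decide) h
    · exact key .he (by decide) h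
    · exact key .ru (by decide) h
    · exact key .on (by decide) h
    · exact key .ly (by decide) h
    · exact key .fi22 (by decide) h
    · exact key .fi23 (by decide) h
    · exact key .fi24 (by decide) h
    · exact key .hn (by decide) h
    · exact key .th (by decide) h
    · exact key .b (by decide) h
    · exact key .m (by decide) h

theorem small_filter : small.filter (fun g => ordN g % 1024 == 0) =
    [.psl 5 2, .psl 2 1024, .psu 5 2, .sz 32, .m24, .co3, .he] := by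
  decide +kernel

end Cfsg.Agent.H314.Co3.Eng
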