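import Cfsg.Agent.H314.Co3.RowLin
import Cfsg.Agent.Cit.HexD4
import Cfsg.Agent.Cit.HexG2
import Cfsg.Agent.Cit.HexInv

/-!
# S1920, case A: `G₂(q)`, `³D₄(q)`, Ree groups (helper314)
-/

set_option autoImplicit false

open Subgroup Cfsg
open scoped MatrixGroups

namespace Cfsg.Agent.H314.Co3

open Cfsg.Agent.OrdDiv Cfsg.Agent.Cit Cfsg.Agent.Cit.HexBase

theorem card_fx {K : Type*} [Field K] [Fintype K] {σ : K ≃+* K} {Q : ℕ} (hQ : 1 < Q) (hσ : ∀ x, σ x = x ^ Q)
    (hd : Q - 1 ∣ Fintype.card K - 1) : Nat.card ↥(fx σ) = Q := by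
  classical
  have := Fintype.ofFinite ↥(fx σ)
  have h1 : Nat.card (powMonoidHom (Q - 1) : Kˣ →* Kˣ).ker = Q - 1 := by
    rw [IsCyclic.card_powMonoidHom_ker, Nat.card_eq_fintype_card, Fintype.card_units]
    exact Nat.gcd_eq_right hd
  have hpow : ∀ u : Kˣ, u ^ (Q - 1) = 1 ↔ σ (u : K) = u := by
    intro u
    rw [hσ]
    constructor
    · intro h
      have h2 : (u : K) ^ (Q - 1) = 1 := by rw [← Units.val_pow_eq_pow_val, h, Units.val_one]
      rw [← Nat.sub_add_cancel hQ.le, pow_succ, h2, one_mul]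
    · intro h
      apply Units.ext
      rw [Units.val_pow_eq_pow_val, Units.val_one]
      rw [← Nat.sub_add_cancel hQ.le, pow_succ] at h
      exact mul_left_eq_self₀.1 h |>.resolve_right u.ne_zero
  let g : (↥(fx σ))ˣ → (powMonoidHom (Q - 1) : Kˣ →* Kˣ).ker := fun u =>
    ⟨Units.map ((fx σ).subtype : ↥(fx σ) →* K) u, by
      rw [MonoidHom.mem_ker, powMonoidHom_apply, hpow]
      exact (u : ↥(fx σ)).2⟩
  have hg : Function.Bijective g := by
    constructor
    · intro u v h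
      have h2 := congrArg (fun x : (powMonoidHom (Q - 1) : Kˣ →* Kˣ).ker => ((x : Kˣ) : K)) h
      exact Units.ext (Subtype.ext h2)
    · rintro ⟨u, hu⟩
      rw [MonoidHom.mem_ker, powMonoidHom_apply, hpow] at hu
      refine ⟨Units.mk0 (⟨(u : K), hu⟩ : ↥(fx σ)) (fun h => u.ne_zero (congrArg Subtype.val h)), ?_⟩
      apply Subtype.ext
      apply Units.ext
      rfl
  have h2 := Nat.card_congr (Equiv.ofBijective g hg)
  rw [h1, Nat.card_eq_fintype_card, Fintype.card_units] at h2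
  have h3 : 0 < Fintype.card ↥(fx σ) := Fintype.card_pos
  rw [Nat.card_eq_fintype_card]
  omega

variable {G : Type*} [Group G] {H N0 : Subgroup G} {z s : G} {ψ : ↥H →* Equiv.Perm (Fin 6)}

theorem row_hex [Finite G] (C : CA H N0 z s ψ) {E : Type*} [Field E] [Fintype E] {σ : E ≃+* E} {L : Type*} [Group L]
    (c : HexGrp σ L) (e : G ≃* L) (hE : Odd (Fintype.card E)) (h32 : 32 ∣ Fintype.card E ^ 2 - 1)
    (ho : Odd (Nat.card ↥(fx σ))) (h32' : 32 ∣ Nat.card ↥(fx σ) ^ 2 - 1) : False := by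
  have := Fintype.ofFinite ↥(fx σ)
  rw [Nat.card_eq_fintype_card] at ho h32'
  refine C.kill_pair hE ho h32 h32' (e.symm.toMonoidHom.comp c.pb) (e.symm.toMonoidHom.comp c.p4)
    (e.symm.injective.comp (c.pb_inj (two_ne hE))) (e.symm.injective.comp c.p4_inj) ?_ (e.symm c.z) ?_
  · intro u v
    change e.symm (c.pb u) * e.symm (c.p4 v) = e.symm (c.p4 v) * e.symm (c.pb u)
    rw [← map_mul, ← map_mul, c.comm_pb_p4]
  · intro u v h
    have h1 : c.pb u = c.p4 v := e.symm.injective h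
    rcases c.eq_of_pb_eq_p4 h1 with h2 | h2
    · left
      change e.symm (c.pb u) = 1
      rw [h2, map_one]
    · right
      change e.symm (c.pb u) = _
      rw [h2]

theorem row_g2 [Finite G] (C : CA H N0 z s ψ) {F : Type} [Field F] [Fintype F] (hF : Odd (Fintype.card F))
    (hc : Nat.card G = Fintype.card F ^ 6 * (Fintype.card F ^ 2 - 1) * (Fintype.card F ^ 6 - 1))
    (e : G ≃* ↥(Lie.chevG2.group F)) : False := by
  have h32 := Num.g2 hF Fintype.one_lt_card hc C.two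
  have h1 : Nat.card ↥(fx (RingEquiv.refl F)) = Fintype.card F :=
    card_fx Fintype.one_lt_card (fun x => (FiniteField.pow_card x).symm) dvd_rfl
  exact row_hex C (HexG2.g2 F (two_ne hF)) e hF h32 (by rw [h1]; exact hF) (by rw [h1]; exact h32)

theorem row_td4 [Finite G] (C : CA H N0 z s ψ) {F : Type} [Field F] [Fintype F] {q : ℕ} (hq : Odd q)
    (hF : Fintype.card F = q ^ 3)
    (hc : Nat.card G = q ^ 12 * (q ^ 2 - 1) * (q ^ 6 - 1) * (q ^ 8 + q ^ 4 + 1))
    (e : G ≃* ↥(Lie.twistedD4 F q)) : False := by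
  have hq1 : 1 < q := by
    have h1 : 1 < Fintype.card F := Fintype.one_lt_card
    rw [hF] at h1
    by_contra hlt
    have h2 : q ^ 3 ≤ 1 ^ 3 := Nat.pow_le_pow_left (by omega) 3
    omega
  have h32 := Num.td4 hq hq1 hc C.two
  obtain ⟨σ, hσ, ⟨c⟩⟩ := Cfsg.Agent.Cit.HexD4.exists_d4 hF
  have hd : q - 1 ∣ Fintype.card F - 1 := by
    rw [hF]
    have := Nat.sub_dvd_pow_sub_pow q 1 3
    rwa [one_pow] at this
  have h1 : Nat.card ↥(fx σ) = q := card_fx hq1 hσ hd
  refine row_hex C c e (by rw [hF]; exact hq.pow) ?_ (by rw [h1]; exact hq) (by rw [h1]; exact h32)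
  rw [hF, ← pow_mul, Num.q6 hq1]
  exact h32.mul_right _

end Cfsg.Agent.H314.Co3
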