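import Cfsg.Agent.H314.Co3.RowLin
import Cfsg.Agent.LieClassical.OrthForms
import Cfsg.Agent.LieClassical.OmegaReindex
import Cfsg.Agent.LieClassical.OrthCenter
import Cfsg.Agent.S0791

/-!
# S1920, case A: `PΩ₈⁻(q)` (helper314)
-/

set_option autoImplicit false

open Subgroup Cfsg Matrix

namespace Cfsg.Agent.H314.Co3

variable {G : Type*} [Group G] {H N0 : Subgroup G} {z s : G} {ψ : ↥H →* Equiv.Perm (Fin 6)}

theorem no_neg {F : Type} [Field F] [Fintype F] (hF : Odd (Fintype.card F)) (a b : F)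
    (hab : ∀ z₁ z₂ : F, z₁ ^ 2 + a * z₁ * z₂ + b * z₂ ^ 2 = 0 → z₁ = 0 ∧ z₂ = 0)
    (y : Omega F (quadFormMinus 3 F a b))
    (hy : (((y : isometryGroup F (quadFormMinus 3 F a b)) : Matrix.GeneralLinearGroup ((Fin 3 ⊕ Fin 3) ⊕ Fin 2) F) :
      Matrix ((Fin 3 ⊕ Fin 3) ⊕ Fin 2) ((Fin 3 ⊕ Fin 3) ⊕ Fin 2) F) = -1) : False := by
  have h1 := (Cfsg.Agent.S0791.result (F := F) rfl hF 4 (by norm_num) a b hab).1 ⟨y.1, y.2, hy⟩
  obtain ⟨k, hk⟩ := hF
  have h2 : Fintype.card F ^ 4 % 4 = 1 := by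
    rw [hk]
    have : (2 * k + 1) ^ 4 = 4 * (4 * k ^ 4 + 8 * k ^ 3 + 6 * k ^ 2 + 2 * k) + 1 := by ring
    rw [this]
    omega
  omega

theorem row_om [Finite G] (C : CA H N0 z s ψ) {F : Type} [Field F] [Fintype F] (hF : Odd (Fintype.card F)) (a b : F)
    (hab : ∀ z₁ z₂ : F, z₁ ^ 2 + a * z₁ * z₂ + b * z₂ ^ 2 = 0 → z₁ = 0 ∧ z₂ = 0)
    (e : G ≃* POmega F (quadFormMinus 3 F a b)) : False := by
  classical
  have hfin : Finite (Omega F (quadFormMinus 3 F a b)) :=
    Finite.of_injective (fun x => (x.1.1 : Matrix.GeneralLinearGroup ((Fin 3 ⊕ Fin 3) ⊕ Fin 2) F))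
      (Subtype.val_injective.comp Subtype.val_injective)
  let π : Omega F (quadFormMinus 3 F a b) →* G := e.symm.toMonoidHom.comp (QuotientGroup.mk' _)
  have hπ : Function.Surjective π := e.symm.surjective.comp (QuotientGroup.mk'_surjective _)
  have hk : ∀ x, π x = 1 → x ∈ Subgroup.center (Omega F (quadFormMinus 3 F a b)) := by
    intro x hx
    have h1 : (QuotientGroup.mk' _ x : POmega F (quadFormMinus 3 F a b)) = 1 := by
      apply e.symm.injective
      rw [map_one]; exact hx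
    exact (QuotientGroup.eq_one_iff _).1 h1
  have hcen : ∀ x ∈ Subgroup.center (Omega F (quadFormMinus 3 F a b)),
      (((x : isometryGroup F (quadFormMinus 3 F a b)) : Matrix.GeneralLinearGroup ((Fin 3 ⊕ Fin 3) ⊕ Fin 2) F) :
        Matrix ((Fin 3 ⊕ Fin 3) ⊕ Fin 2) ((Fin 3 ⊕ Fin 3) ⊕ Fin 2) F) = 1 ∨
      (((x : isometryGroup F (quadFormMinus 3 F a b)) : Matrix.GeneralLinearGroup ((Fin 3 ⊕ Fin 3) ⊕ Fin 2) F) :
        Matrix ((Fin 3 ⊕ Fin 3) ⊕ Fin 2) ((Fin 3 ⊕ Fin 3) ⊕ Fin 2) F) = -1 := by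
    rw [← LieClassical.OrthForms.coe_minusForm 3 F]
    intro x hx
    refine (LieClassical.OrthCenter.mem_center_omega_iff
      (LieClassical.OmegaReindex.nondegenerate_of_left _
        (fun x hx => LieClassical.OrthForms.nondeg_minusForm 3 F a b hab x hx)) ?_ ?_ x).1 hx
    · simp only [Fintype.card_sum, Fintype.card_fin]; omega
    · refine ⟨Pi.single (Sum.inl (Sum.inl ⟨0, by omega⟩)) 1, ?_, ?_⟩
      · intro h
        have := congrFun h (Sum.inl (Sum.inl ⟨0, by omega⟩))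
        simp at this
      · rw [LieClassical.OrthForms.coe_minusForm, LieClassical.OrthForms.quadFormMinus_apply]
        simp
  have hbot : π.ker = ⊥ := by
    rw [eq_bot_iff]
    intro x hx
    rcases hcen x (hk x hx) with h | h
    · rw [Subgroup.mem_bot]
      exact Subtype.ext (Subtype.ext (Units.ext h))
    · exact (no_neg hF a b hab x h).elim
  have hko : Odd (Nat.card π.ker) := by rw [hbot, Subgroup.card_bot]; exact odd_one
  let ρ : Omega F (quadFormMinus 3 F a b) →* Matrix ((Fin 3 ⊕ Fin 3) ⊕ Fin 2) ((Fin 3 ⊕ Fin 3) ⊕ Fin 2) F :=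
    (Units.coeHom _).comp ((isometryGroup F (quadFormMinus 3 F a b)).subtype.comp
      (Omega F (quadFormMinus 3 F a b)).subtype)
  have hρ : Function.Injective ρ := fun x y h => Subtype.ext (Subtype.ext (Units.ext h))
  obtain ⟨y, -, hy⟩ := (C.lin_core (two_ne hF) π hπ hko ρ hρ).2 (by simp)
  exact no_neg hF a b hab y hy

end Cfsg.Agent.H314.Co3
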