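import Cfsg.Agent.H314.Co3.Two
import Cfsg.Agent.H314.Co3.Num
import Cfsg.Agent.ClassicalGeometry.SympInvolutions

/-!
# S1920, case A: `PSp_4(q)`, `PSp_6(q)`, `PΩ_7(q)` (helper314)
-/

set_option autoImplicit false

open Subgroup Cfsg Matrix
open scoped MatrixGroups

namespace Cfsg.Agent.H314.Co3.RowSp

open Cfsg.Agent.ClassicalGeometry.SympBasic Cfsg.Agent.OrdDiv

variable {F : Type*} [Field F]

local notation "V" => (Fin 2 ⊕ Fin 2 → F)

/-- two orthogonal hyperbolic planes -/
def emb (M N : SL(2, F)) : Matrix.symplecticGroup (Fin 2) F :=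
  ⟨fromBlocks !![M.1 0 0, 0; 0, N.1 0 0] !![M.1 0 1, 0; 0, N.1 0 1] !![M.1 1 0, 0; 0, N.1 1 0]
    !![M.1 1 1, 0; 0, N.1 1 1], by
    have hM := M.2
    have hN := N.2
    rw [det_fin_two] at hM hN
    rw [mem_symplecticGroup_iff]
    intro u v
    rw [sympForm_eq_sum, sympForm_eq_sum, Fin.sum_univ_two, Fin.sum_univ_two]
    simp [Matrix.mulVec, dotProduct, Fintype.sum_sum_type, Fin.sum_univ_two]
    linear_combination (u (Sum.inr 0) * v (Sum.inl 0) - u (Sum.inl 0) * v (Sum.inr 0)) * hM +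
      (u (Sum.inr 1) * v (Sum.inl 1) - u (Sum.inl 1) * v (Sum.inr 1)) * hN⟩

theorem emb_apply (M N : SL(2, F)) (v : V) :
    ((emb M N : Matrix (Fin 2 ⊕ Fin 2) (Fin 2 ⊕ Fin 2) F) *ᵥ v) =
      Sum.elim ![M.1 0 0 * v (Sum.inl 0) + M.1 0 1 * v (Sum.inr 0), N.1 0 0 * v (Sum.inl 1) + N.1 0 1 * v (Sum.inr 1)]
        ![M.1 1 0 * v (Sum.inl 0) + M.1 1 1 * v (Sum.inr 0), N.1 1 0 * v (Sum.inl 1) + N.1 1 1 * v (Sum.inr 1)] := by
  ext i
  rcases i with i | i <;> fin_cases i <;>
    simp [emb, Matrix.mulVec, dotProduct, Fintype.sum_sum_type, Fin.sum_univ_two]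

theorem emb_mul (M N M' N' : SL(2, F)) : emb (M * M') (N * N') = emb M N * emb M' N' := by
  apply Subtype.ext
  apply Matrix.mulVec_injective
  funext v
  rw [Submonoid.coe_mul, ← Matrix.mulVec_mulVec, emb_apply, emb_apply, emb_apply]
  ext i
  rcases i with i | i <;> fin_cases i <;>
    simp [Matrix.mul_apply, Fin.sum_univ_two] <;> ring

theorem emb_one : emb (1 : SL(2, F)) 1 = 1 := by
  apply Subtype.ext
  apply Matrix.mulVec_injective
  funext v
  rw [emb_apply, Submonoid.coe_one, Matrix.one_mulVec]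
  ext i
  rcases i with i | i <;> fin_cases i <;> simp

theorem emb_inj {M N M' N' : SL(2, F)} (h : emb M N = emb M' N') : M = M' ∧ N = N' := by
  have h1 : ∀ v : V, ((emb M N : Matrix (Fin 2 ⊕ Fin 2) (Fin 2 ⊕ Fin 2) F) *ᵥ v) =
      ((emb M' N' : Matrix (Fin 2 ⊕ Fin 2) (Fin 2 ⊕ Fin 2) F) *ᵥ v) := fun v => by rw [h]
  have h2 := h1 (Pi.single (Sum.inl 0) 1)
  have h3 := h1 (Pi.single (Sum.inr 0) 1)
  have h4 := h1 (Pi.single (Sum.inl 1) 1)
  have h5 := h1 (Pi.single (Sum.inr 1) 1)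
  rw [emb_apply, emb_apply] at h2 h3 h4 h5
  constructor
  · ext i j
    fin_cases i <;> fin_cases j
    · simpa using congrFun h2 (Sum.inl 0)
    · simpa using congrFun h3 (Sum.inl 0)
    · simpa using congrFun h2 (Sum.inr 0)
    · simpa using congrFun h3 (Sum.inr 0)
  · ext i j
    fin_cases i <;> fin_cases j
    · simpa using congrFun h4 (Sum.inl 1)
    · simpa using congrFun h5 (Sum.inl 1)
    · simpa using congrFun h4 (Sum.inr 1)
    · simpa using congrFun h5 (Sum.inr 1)

theorem neg_emb : ((emb (-1) (-1) : Matrix.symplecticGroup (Fin 2) F) : Matrix (Fin 2 ⊕ Fin 2) (Fin 2 ⊕ Fin 2) F) = -1 := by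
  apply Matrix.mulVec_injective
  funext v
  rw [emb_apply, Matrix.neg_mulVec, Matrix.one_mulVec]
  ext i
  rcases i with i | i <;> fin_cases i <;> simp

/-- the homomorphism to `PSp_4` -/
def embHom (F : Type*) [Field F] : SL(2, F) × SL(2, F) →* PSp 2 F where
  toFun p := QuotientGroup.mk (emb p.1 p.2)
  map_one' := by
    change (QuotientGroup.mk (emb (1 : SL(2, F)) 1) : PSp 2 F) = 1
    rw [emb_one]; rfl
  map_mul' p q := by
    change (QuotientGroup.mk (emb (p.1 * q.1) (p.2 * q.2)) : PSp 2 F) = _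
    rw [emb_mul]; rfl

theorem embHom_eq_one {p : SL(2, F) × SL(2, F)} (h : embHom F p = 1) : p = 1 ∨ p = (-1, -1) := by
  have h1 : emb p.1 p.2 ∈ Subgroup.center (Matrix.symplecticGroup (Fin 2) F) := (QuotientGroup.eq_one_iff _).1 h
  rcases Cfsg.Agent.ClassicalGeometry.SympInvolutions.center_eq h1 with h2 | h2
  · left
    have h3 : emb p.1 p.2 = emb 1 1 := by rw [emb_one]; exact Subtype.ext h2
    obtain ⟨h4, h5⟩ := emb_inj h3
    exact Prod.ext h4 h5
  · right
    have h3 : emb p.1 p.2 = emb (-1) (-1) := Subtype.ext (by rw [h2, neg_emb])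
    obtain ⟨h4, h5⟩ := emb_inj h3
    exact Prod.ext h4 h5

theorem neg_ne {F : Type*} [Field F] (h2 : (2 : F) ≠ 0) : (-1 : SL(2, F)) ≠ 1 :=
  ClassicalGeometry.PSLTorus.neg_one_ne_one h2

end RowSp

open RowSp Cfsg.Agent.OrdDiv

variable {G : Type*} [Group G] {H N0 : Subgroup G} {z s : G} {ψ : ↥H →* Equiv.Perm (Fin 6)}

theorem row_psp4 [Finite G] (C : CA H N0 z s ψ) {F : Type} [Field F] [Fintype F] (hF : Odd (Fintype.card F))
    (e : G ≃* PSp 2 F) : False := by
  have h2 : (2 : F) ≠ 0 := (ClassicalGeometry.PSLTorus.two_ne_zero_iff_odd F).2 hF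
  have hc := H285.TwoPart.psp_card (F := F) (m := 2) (by norm_num)
  rw [← Nat.card_congr e.toEquiv] at hc
  have h32 := Num.psp4 hF Fintype.one_lt_card hc C.two
  have hne := neg_ne h2
  refine C.kill_pair hF hF h32 h32 ((e.symm.toMonoidHom.comp (embHom F)).comp (MonoidHom.inl _ _))
    ((e.symm.toMonoidHom.comp (embHom F)).comp (MonoidHom.inr _ _)) ?_ ?_ ?_ (e.symm (embHom F (-1, 1))) ?_
  · rw [injective_iff_map_eq_one]
    intro u hu
    have h3 : embHom F (u, 1) = 1 := by
      apply e.symm.injective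
      rw [map_one]; exact hu
    rcases embHom_eq_one h3 with h4 | h4
    · exact congrArg Prod.fst h4
    · exact absurd (congrArg Prod.snd h4).symm hne
  · rw [injective_iff_map_eq_one]
    intro u hu
    have h3 : embHom F (1, u) = 1 := by
      apply e.symm.injective
      rw [map_one]; exact hu
    rcases embHom_eq_one h3 with h4 | h4
    · exact congrArg Prod.snd h4
    · exact absurd (congrArg Prod.fst h4).symm hne
  · intro u v
    change e.symm (embHom F (u, 1)) * e.symm (embHom F (1, v)) = e.symm (embHom F (1, v)) * e.symm (embHom F (u, 1))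
    rw [← map_mul, ← map_mul, ← map_mul, ← map_mul]
    simp
  · intro u v huv
    have h3 : embHom F (u, 1) = embHom F (1, v) := e.symm.injective huv
    have h4 : embHom F (u, v⁻¹) = 1 := by
      have h5 : ((u, v⁻¹) : SL(2, F) × SL(2, F)) = (u, 1) * (1, v)⁻¹ := by simp
      rw [h5, map_mul, map_inv, h3, mul_inv_cancel]
    rcases embHom_eq_one h4 with h5 | h5
    · left
      have : u = 1 := congrArg Prod.fst h5
      rw [this, map_one]
    · right
      have : u = -1 := congrArg Prod.fst h5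
      rw [this]; rfl

theorem row_psp6 [Finite G] (C : CA H N0 z s ψ) {F : Type} [Field F] [Fintype F] (hF : Odd (Fintype.card F))
    (e : G ≃* PSp 3 F) : False := by
  have hc := H285.TwoPart.psp_card (F := F) (m := 3) (by norm_num)
  rw [← Nat.card_congr e.toEquiv] at hc
  change Nat.gcd 2 (Fintype.card F - 1) * Nat.card G = Fintype.card F ^ (3 ^ 2) * prB (Fintype.card F) 3 at hc
  have hg : Nat.gcd 2 (Fintype.card F - 1) = 2 := by
    apply Nat.gcd_eq_left
    obtain ⟨k, hk⟩ := hF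
    exact ⟨k, by omega⟩
  rw [hg] at hc
  exact Num.psp6 hF Fintype.one_lt_card hc C.two

theorem row_o7 [Finite G] (C : CA H N0 z s ψ) {F : Type} [Field F] [Fintype F] (hF : Odd (Fintype.card F))
    (e : G ≃* POmega F (quadFormOdd 3 F)) : False := by
  have hc := H285.TwoPart.oodd_card (F := F) (m := 3) (by norm_num) hF
  rw [← Nat.card_congr e.toEquiv] at hc
  change 2 * Nat.card G = Fintype.card F ^ (3 ^ 2) * prB (Fintype.card F) 3 at hc
  exact Num.psp6 hF Fintype.one_lt_card hc C.two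

end Cfsg.Agent.H314.Co3
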