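import Cfsg.Agent.H314.Co3.RowSmall
import Cfsg.Agent.H314.Co3.RowHex
import Cfsg.Agent.H314.Co3.RowOm
import Cfsg.Agent.H314.Co3.RowSp
import Cfsg.Agent.H285.TwoExact
import Cfsg.Agent.OrdDiv.Table

/-!
# S1920, case A: the theorem (helper314)

`caseA` : a known simple group with a configuration `CA` is the Conway group `Co₃`.
-/

set_option autoImplicit false

open Subgroup Cfsg

namespace Cfsg.Agent.H314.Co3

universe u

variable {G : Type u} [Group G] {H N0 : Subgroup G} {z s : G} {ψ : ↥H →* Equiv.Perm (Fin 6)}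

theorem CA.not_comm [Finite G] (C : CA H N0 z s ψ) : ¬ ∀ a b : G, a * b = b * a := by
  intro h
  obtain ⟨x, hx⟩ := C.surj c[0, 1]
  obtain ⟨y, hy⟩ := C.surj c[0, 2]
  have h1 : x * y = y * x := Subtype.ext (h x y)
  have h2 : ψ (x * y) = ψ (y * x) := by rw [h1]
  rw [map_mul, map_mul, hx, hy] at h2
  exact absurd h2 (by decide)

/-- **Case A of S1920** (order table as a hypothesis) -/
theorem caseA_of (T : Cfsg.Agent.OrdDiv.OrderTable.{u}) [Finite G] (h : IsKnownSimple' G) (C : CA H N0 z s ψ) :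
    Spor.IsoCo3 G := by
  rcases Eng.main T h C.not_comm C.not_dvd with h | h | h | h | h | h | h | h | h | h
  · obtain ⟨n, -, hn, ⟨e⟩⟩ := h
    exact (row_alt C hn e).elim
  · obtain ⟨F, _, _, n, hF, hn, hn5, ⟨e⟩⟩ := h
    exfalso
    have hn' : n = 2 ∨ n = 3 ∨ n = 4 ∨ n = 5 := by omega
    rcases hn' with rfl | rfl | rfl | rfl
    · exact row_psl2 C hF e
    · exact row_psl_odd C hF (by decide) (by norm_num) e
    · exact row_psl4 C hF e
    · exact row_psl_odd C hF (by decide) (by norm_num) e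
  · obtain ⟨F, _, _, m, hF, hm, hm3, ⟨e⟩⟩ := h
    exfalso
    have hm' : m = 2 ∨ m = 3 := by omega
    rcases hm' with rfl | rfl
    · exact row_psp4 C hF e
    · exact row_psp6 C hF e
  · obtain ⟨F, _, _, n, q, hF, hq, hn, hn5, ⟨e⟩⟩ := h
    exfalso
    have hn' : n = 3 ∨ n = 4 ∨ n = 5 := by omega
    rcases hn' with rfl | rfl | rfl
    · exact row_psu_odd C hF hq (by decide) (by norm_num) (by norm_num) e
    · exact row_psu4 C hF hq e
    · exact row_psu_odd C hF hq (by decide) (by norm_num) (by norm_num) e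
  · obtain ⟨F, _, _, hF, ⟨e⟩⟩ := h
    exact (row_o7 C hF e).elim
  · obtain ⟨F, _, _, hF, ⟨e⟩⟩ := h
    refine (row_g2 C hF ?_ e).elim
    rw [Nat.card_congr e.toEquiv]
    exact T.g2 F
  · obtain ⟨F, _, _, q, hq, hpp, hF, ⟨e⟩⟩ := h
    refine (row_td4 C hq hF ?_ e).elim
    rw [Nat.card_congr e.toEquiv]
    exact T.td4 F q hpp hF
  · obtain ⟨K, _, _, m, hm, hK, ⟨e⟩⟩ := h
    exfalso
    have h1 := H285.TwoExact.ree (H285.TwoExact.ree_mod m) (T.ree K m hm hK)
    rw [← Nat.card_congr e.toEquiv] at h1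
    exact h1 ((show 2 ^ 4 ∣ 46080 by norm_num).trans C.dvd_card)
  · obtain ⟨F, _, _, a, b, hF, hab, ⟨e⟩⟩ := h
    exact (row_om C hF a b hab e).elim
  · obtain ⟨g, hg, hr, hc⟩ := h
    exact row_small C hg hr hc

/-- **Case A of S1920** -/
theorem caseA [Finite G] (h : IsKnownSimple' G) (C : CA H N0 z s ψ) : Spor.IsoCo3 G :=
  caseA_of Cfsg.Agent.OrdDiv.table h C

end Cfsg.Agent.H314.Co3
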