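import Cfsg.Agent.H314.Co3.Char2
import Cfsg.Agent.H314.Co3.RowAlt
import Cfsg.Agent.H314.Co3.Eng
import Cfsg.Agent.HoltZ.CentHe
import Cfsg.Agent.HoltZ.Crit
import Cfsg.Agent.KFacts.He.Cent
import Cfsg.Agent.KFacts.HS.Sheet
import Cfsg.Agent.KFacts.M24Two.Orders
import Cfsg.Agent.SmallSimple.ClassDvd

/-!
# S1920, case A: the short list (helper314)
-/

set_option autoImplicit false

open Subgroup Cfsg

namespace Cfsg.Agent.H314.Co3

theorem card_cent_equiv {G K : Type*} [Group G] [Group K] (e : G ≃* K) (z : G) :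
    Nat.card (centralizer ({e z} : Set K)) = Nat.card (centralizer ({z} : Set G)) := by
  refine (Nat.card_congr (e.toEquiv.subtypeEquiv fun x => ?_)).symm
  rw [mem_centralizer_singleton_iff, mem_centralizer_singleton_iff]
  change x * z = z * x ↔ e x * e z = e z * e x
  rw [← map_mul, ← map_mul, e.injective.eq_iff]

variable {G : Type*} [Group G] {H N0 : Subgroup G} {z s : G} {ψ : ↥H →* Equiv.Perm (Fin 6)}

namespace CA

theorem dvd_H [Finite G] (C : CA H N0 z s ψ) : 46080 ∣ Nat.card H := by
  obtain ⟨m, -, hk⟩ := C.ker_card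
  have h1 := Subgroup.card_mul_index ψ.ker
  rw [Subgroup.index_ker, MonoidHom.range_eq_top.2 C.surj, Subgroup.card_top, card_perm_six, hk] at h1
  exact ⟨m, by omega⟩

theorem H_le (C : CA H N0 z s ψ) : H ≤ centralizer ({z} : Set G) := fun h hh =>
  mem_centralizer_singleton_iff.2 (C.z_cen h hh)

theorem dvd_cent [Finite G] (C : CA H N0 z s ψ) : 46080 ∣ Nat.card (centralizer ({z} : Set G)) :=
  C.dvd_H.trans (Subgroup.card_dvd_of_le C.H_le)

theorem dvd_card [Finite G] (C : CA H N0 z s ψ) : 46080 ∣ Nat.card G :=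
  C.dvd_H.trans (Subgroup.card_subgroup_dvd_card H)

theorem not_dvd [Finite G] (C : CA H N0 z s ψ) : ¬ 2 ^ 11 ∣ Nat.card G := by
  intro h
  have h1 := (Nat.prime_two.pow_dvd_iff_le_factorization Nat.card_pos.ne').1 h
  rw [C.two] at h1
  omega

theorem odd_index [Finite G] (C : CA H N0 z s ψ) : Odd (centralizer ({z} : Set G)).index := by
  by_contra hodd
  rw [Nat.not_odd_iff_even] at hodd
  obtain ⟨k, hk⟩ := even_iff_two_dvd.1 hodd
  obtain ⟨l, hl⟩ := C.dvd_cent
  have h1 := Subgroup.card_mul_index (centralizer ({z} : Set G))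
  apply C.not_dvd
  rw [← h1, hk, hl]
  exact ⟨45 * l * k, by ring⟩

end CA

theorem row_he [Finite G] (C : CA H N0 z s ψ) (h : Spor.IsoHe G) : False := by
  obtain ⟨e⟩ := h
  have hf : Finite Spor.He := Finite.of_equiv _ e.toEquiv
  have hcc := card_cent_equiv e z
  have hd := C.dvd_cent
  rw [← hcc] at hd
  have hodd : Odd (centralizer ({e z} : Set Spor.He)).index := by
    have h1 := Subgroup.card_mul_index (centralizer ({z} : Set G))
    have h2 := Subgroup.card_mul_index (centralizer ({e z} : Set Spor.He))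
    rw [hcc, ← Nat.card_congr e.toEquiv, ← h1] at h2
    rw [Nat.eq_of_mul_eq_mul_left Nat.card_pos h2]
    exact C.odd_index
  have h1 : IsTwoCentralInvolution (e z) := by
    obtain ⟨S, hS⟩ := KFacts.HS.exists_sylow_le _ hodd
    refine HoltZ.Crit.twoCentral (by rw [← map_mul, C.z_sq, map_one]) (fun h => C.z_ne (e.injective (by rw [h, map_one])))
      ⟨S, fun s hs => mem_centralizer_singleton_iff.1 (hS hs)⟩
  have h2 : IsTwoCentralInvolution KFacts.He.Bound.z := by
    have hodd' : Odd (centralizer ({KFacts.He.Bound.z} : Set Spor.He)).index := by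
      have h1 := card_mul_index (centralizer ({KFacts.He.Bound.z} : Set Spor.He))
      rw [KFacts.He.Cent.card_cent, KFacts.He.Cent.card_He] at h1
      rw [show (centralizer ({KFacts.He.Bound.z} : Set Spor.He)).index = 187425 by omega]
      decide
    obtain ⟨S, hS⟩ := KFacts.HS.exists_sylow_le _ hodd'
    refine HoltZ.Crit.twoCentral (by rw [← KFacts.He.Hyp.hyp.map_zz, ← map_mul, show SporadicRecognition.HeldModel.zC * SporadicRecognition.HeldModel.zC = 1 from Subtype.ext KFacts.TwoSix.Facts.zz_sq, map_one])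
      KFacts.He.Hyp.z_ne_one ⟨S, fun s hs => mem_centralizer_singleton_iff.1 (hS hs)⟩
  have h3 := SmallSimple.ClassDvd.card_centralizer_conj (HoltZ.CentHe.central _ _ h1 h2)
  rw [h3, KFacts.He.Cent.card_cent] at hd
  exact absurd hd (by norm_num)

theorem row_m24 [Finite G] (C : CA H N0 z s ψ) (h : Spor.IsoM24 G) : False := by
  obtain ⟨e⟩ := h
  have hf : Finite M24 := Finite.of_equiv _ e.toEquiv
  have hcc := card_cent_equiv e z
  have hd := C.dvd_cent
  rw [← hcc] at hd
  obtain ⟨g, hg⟩ := J4.M24Invol.invol_conj (e z) (by rw [← map_mul, C.z_sq, map_one])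
    (fun h => C.z_ne (e.injective (by rw [h, map_one])))
  rcases hg with hg | hg
  · have h3 := SmallSimple.ClassDvd.card_centralizer_conj (isConj_iff.2 ⟨g, hg⟩)
    have h4 : Nat.card (centralizer ({SporadicStructure.M24El.el J4.M24InvolData.P1} : Set M24)) = 21504 :=
      KFacts.M24Two.Orders.card_centralizer_z
    rw [h3, h4] at hd
    exact absurd hd (by norm_num)
  · have h3 := SmallSimple.ClassDvd.card_centralizer_conj (isConj_iff.2 ⟨g, hg⟩)
    have h4 : Nat.card (centralizer ({SporadicStructure.M24El.el J4.M24InvolData.P2} : Set M24)) = 7680 :=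
      KFacts.M24Two.Orders.card_centralizer_w
    rw [h3, h4] at hd
    exact absurd hd (by norm_num)

theorem two_eq {F : Type} [Field F] [Fintype F] (h : Fintype.card F = 2 ∨ Fintype.card F = 4) : CharP F 2 := by
  have h0 := FiniteField.cast_card_eq_zero F
  have h2 : (2 : F) = 0 := by
    rcases h with h | h
    · rw [h] at h0; exact_mod_cast h0
    · rw [h] at h0
      have h1 : (2 : F) * 2 = 0 := by
        have : (2 : F) * 2 = ((4 : ℕ) : F) := by norm_num
        rw [this, h0]
      exact mul_self_eq_zero.1 h1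
  exact CharTwo.of_one_ne_zero_of_two_eq_zero one_ne_zero h2

theorem row_l52 [Finite G] (C : CA H N0 z s ψ) {F : Type} [Field F] [Fintype F] (hF : Fintype.card F = 2)
    (hcard : ¬ 25 ∣ Nat.card G) (e : G ≃* Matrix.ProjectiveSpecialLinearGroup (Fin 5) F) : False := by
  classical
  have := two_eq (Or.inl hF)
  let π : Matrix.SpecialLinearGroup (Fin 5) F →* G := e.symm.toMonoidHom.comp (QuotientGroup.mk' _)
  have hπ : Function.Surjective π := e.symm.surjective.comp (QuotientGroup.mk'_surjective _)
  have hi : Function.Injective π := by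
    rw [injective_iff_map_eq_one]
    intro x hx
    have h1 : (QuotientGroup.mk' _ x : Matrix.ProjectiveSpecialLinearGroup (Fin 5) F) = 1 := by
      apply e.symm.injective
      rw [map_one]; exact hx
    obtain ⟨r, hr, hrx⟩ := Matrix.SpecialLinearGroup.mem_center_iff.1 ((QuotientGroup.eq_one_iff _).1 h1)
    have hr0 : r ≠ 0 := by
      rintro rfl
      rw [Fintype.card_fin, zero_pow (by norm_num)] at hr
      exact zero_ne_one hr
    have hr1 : r = 1 := by
      have := FiniteField.pow_card_sub_one_eq_one r hr0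
      rw [hF] at this
      simpa using this
    apply Subtype.ext
    rw [← hrx, hr1, map_one]
    rfl
  let ε := MulEquiv.ofBijective π ⟨hi, hπ⟩
  refine C.row_char2 hcard ((slToMat 5 F).comp ε.symm.toMonoidHom) ?_
  intro x y hxy
  exact ε.symm.injective (Subtype.ext hxy)

theorem row_u52 [Finite G] (C : CA H N0 z s ψ) {F : Type} [Field F] [Fintype F] (hF : Fintype.card F = 2 ^ 2)
    (hcard : ¬ 25 ∣ Nat.card G) (e : G ≃* PSU 5 F 2) : False := by
  classical
  have := two_eq (F := F) (Or.inr (by rw [hF]; norm_num))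
  let π : SU 5 F 2 →* G := e.symm.toMonoidHom.comp (QuotientGroup.mk' _)
  have hπ : Function.Surjective π := e.symm.surjective.comp (QuotientGroup.mk'_surjective _)
  have hbot : Subgroup.center (SU 5 F 2) = ⊥ := by
    apply Subgroup.eq_bot_of_card_eq
    rw [S0279.result hF 5 (by norm_num)]
    norm_num
  have hi : Function.Injective π := by
    rw [injective_iff_map_eq_one]
    intro x hx
    have h1 : (QuotientGroup.mk' _ x : PSU 5 F 2) = 1 := by
      apply e.symm.injective
      rw [map_one]; exact hx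
    have h2 : x ∈ Subgroup.center (SU 5 F 2) := (QuotientGroup.eq_one_iff _).1 h1
    rw [hbot] at h2
    exact h2
  let ε := MulEquiv.ofBijective π ⟨hi, hπ⟩
  refine C.row_char2 hcard (((slToMat 5 F).comp (SU 5 F 2).subtype).comp ε.symm.toMonoidHom) ?_
  intro x y hxy
  exact ε.symm.injective (Subtype.ext (Subtype.ext hxy))

open Cfsg.Agent.OrdDiv Eng in
theorem small_filter' : small.filter (fun g => ordN g % 46080 == 0) =
    [.psl 5 2, .psu 5 2, .m24, .co3, .he] := by
  decide +kernel

open Cfsg.Agent.OrdDiv Eng in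
theorem row_small [Finite G] (C : CA H N0 z s ψ) {g : Grp} (hg : g ∈ small) (hr : Real g G)
    (hc : Nat.card G = ordN g) : Spor.IsoCo3 G := by
  have h1 : ordN g % 46080 = 0 := by rw [← hc]; exact Nat.mod_eq_zero_of_dvd C.dvd_card
  have h2 : g ∈ small.filter (fun g => ordN g % 46080 == 0) := List.mem_filter.2 ⟨hg, by simpa using h1⟩
  rw [small_filter'] at h2
  simp only [List.mem_cons, List.not_mem_nil, or_false] at h2
  rcases h2 with rfl | rfl | rfl | rfl | rfl
  · exfalso
    obtain ⟨F, _, _, hF, ⟨e⟩⟩ := hr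
    have h3 : ordN (.psl 5 2) = 9999360 := by decide +kernel
    exact row_l52 C hF (by rw [hc, h3]; norm_num) e
  · exfalso
    obtain ⟨F, _, _, hF, ⟨e⟩⟩ := hr
    have h3 : ordN (.psu 5 2) = 13685760 := by decide +kernel
    exact row_u52 C hF (by rw [hc, h3]; norm_num) e
  · exact (row_m24 C hr).elim
  · exact hr
  · exact (row_he C hr).elim

end Cfsg.Agent.H314.Co3
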